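import Cfsg.Agent.H888.RatMain

/-!
# Overgroups of the rational Siegel elements (S2187, orthogonal field automorphisms, helper889)

The results of `H888.Rat` for groups `H ≤ E Q` which contain the rational Siegel elements (and not necessarily the whole
normaliser of the rational structure): `overgroups_rat` : `H ≤ stR b F₀` or `H = E Q`.
Adapted from the files `RatStab`, `RatOpp`, `RatMain` of helper888; the new part is `CtxR.stab_point`.
-/

set_option autoImplicit false
set_option linter.unusedSectionVars false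

namespace Cfsg.Agent.H889.Gen.Rat

open QuadraticMap hiding proj
open Cfsg.Agent.LieClassical.OrthCore Cfsg.Agent.LieClassical.OrthTrans
  Cfsg.Agent.LieClassical.OrthFinite Cfsg.Agent.H883.Root Cfsg.Agent.H883.Sub
open Cfsg.Agent.H888.Rat

variable {F V : Type*} [Field F] [AddCommGroup V] [Module F V] {ι : Type*}
variable {b : Module.Basis ι F V} {F₀ : Subfield F} {Q : QuadraticForm F V}
variable {H : Subgroup (V ≃ₗ[F] V)}

/-- The standing hypotheses on `H`. -/
structure CtxR (Q : QuadraticForm F V) (b : Module.Basis ι F V) (F₀ : Subfield F)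
    (H : Subgroup (V ≃ₗ[F] V)) : Prop where
  nondeg : Nondeg Q
  isRat : IsRat Q b F₀
  has : HasRat Q b F₀ H
  leE : H ≤ E Q
  thin : Thin Q b F₀ H

theorem CtxR.isom {g : V ≃ₗ[F] V} (C : CtxR Q b F₀ H) (hg : g ∈ H) : g ∈ O Q := E_le_O (C.leE hg)

/-- the commutator of a unipotent element with a rational Siegel element -/
theorem has_comm_aux {u w e f : V} (hu : Q u = 0) (hw : polar Q u w = 0) (hx : Has Q H e f)
    (hue : polar Q u e = 0) (huf : polar Q u f = 0)
    (hk : Has Q H (siegel Q u w hu hw e) (siegel Q u w hu hw f)) :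
    Has Q H u (w - siegel Q e f hx.sing hx.perp w) := by
  set k := siegel Q u w hu hw with hkdef
  set x := siegel Q e f hx.sing hx.perp with hxdef
  have hxO : x ∈ O Q := siegel_mem_O _ _
  have hkO : k ∈ O Q := siegel_mem_O _ _
  have hxu : x u = u := siegel_fix _ _ (by rw [polar_comm]; exact hue) (by rw [polar_comm]; exact huf)
  have hw' : polar Q u (-w) = 0 := by rw [polar_neg_right, hw, neg_zero]
  have h1 : k⁻¹ = siegel Q u (-w) hu hw' := siegel_inv hu hw hw'
  have hux : Q (x u) = 0 := by rw [hxu]; exact hu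
  have hux' : polar Q (x u) (x (-w)) = 0 := by rw [polar_map hxO]; exact hw'
  have h2 : x * k⁻¹ * x⁻¹ = siegel Q (x u) (x (-w)) hux hux' := by
    rw [h1]
    exact siegel_conj hxO hu hw' hux hux'
  have hux'' : polar Q u (x (-w)) = 0 := by rw [← hxu, polar_map hxO]; exact hw'
  have h3 : siegel Q (x u) (x (-w)) hux hux' = siegel Q u (x (-w)) hu hux'' := by
    congr 1
  have h4 : k * x * k⁻¹ = siegel Q (k e) (k f) hk.sing hk.perp := siegel_conj hkO hx.sing hx.perp _ _
  have hp : polar Q u (w + x (-w)) = 0 := by rw [polar_add_right, hw, hux'', add_zero]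
  have h5 : siegel Q u (w + x (-w)) hu hp ∈ H := by
    rw [← siegel_mul hu hw hux'' hp, ← h3, ← h2]
    have h6 : siegel Q u w hu hw * (x * k⁻¹ * x⁻¹) = (k * x * k⁻¹) * x⁻¹ := by
      rw [← hkdef]
      group
    rw [h6, h4]
    exact H.mul_mem (hk.mem _ _) (H.inv_mem (hx.mem _ _))
  have h6 : w + x (-w) = w - x w := by rw [map_neg, sub_eq_add_neg]
  exact Has.congr ⟨hu, hp, h5⟩ rfl h6

variable [Fintype ι] [Finite F]

/-- **The stabiliser in `H` of a rational singular point normalises the rational structure.** -/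
theorem CtxR.stab_point (C : CtxR Q b F₀ H) (hn : 7 ≤ Fintype.card ι) {g : V ≃ₗ[F] V} (hg : g ∈ H)
    {u : V} (hu : u ∈ rat b F₀) (hu0 : u ≠ 0) (hsu : Q u = 0) {a : F} (hgu : g u = a • u) :
    g ∈ stR b F₀ := by
  have hgO := C.isom hg
  have ha : a ≠ 0 := by
    rintro rfl
    rw [zero_smul] at hgu
    exact hu0 (g.map_eq_zero_iff.1 hgu)
  obtain ⟨v, hv, huv⟩ := exists_partner_rat C.nondeg C.isRat hu hsu hu0
  have hv' : Hyp Q u (a • g v) := by
    refine ⟨hsu, ?_, ?_⟩
    · rw [QuadraticMap.map_smul, mem_O.1 hgO, huv.right, smul_zero]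
    · rw [polar_smul_right, ← polar_smul_left, ← hgu, polar_map hgO, huv.pair]
  have hw : polar Q u (a • g v - v) = 0 := by
    rw [polar_sub_right, hv'.pair, huv.pair, sub_self]
  set k := siegel Q u (a • g v - v) hsu hw with hk
  have hkE : k ∈ E Q := siegel_mem_E _ _
  have hkO : k ∈ O Q := siegel_mem_O _ _
  have hku : k u = u := by
    rw [hk, siegel_apply, huv.polar_left, polar_comm Q _ u, hw]
    simp
  have hkv : k v = a • g v := by
    have hQ' : Q (a • g v - v) = - polar Q (a • g v) v := by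
      rw [sub_eq_add_neg, Q_add, QuadraticMap.map_neg, polar_neg_right, hv'.right, huv.right]
      ring
    rw [hk, siegel_apply, huv.pair, hQ', polar_sub_left, huv.polar_right]
    module
  -- `g' = k⁻¹ g`
  set g' := k⁻¹ * g with hg'
  have hkg' : ∀ x, k (g' x) = g x := fun x => LinearEquiv.apply_symm_apply k (g x)
  have hg'E : g' ∈ E Q := (E Q).mul_mem ((E Q).inv_mem hkE) (C.leE hg)
  have hg'O : g' ∈ O Q := E_le_O hg'E
  have hg'u : g' u = a • u := by
    apply k.injective
    rw [hkg', map_smul, hku, hgu]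
  have hg'v : a • g' v = v := by
    apply k.injective
    rw [map_smul, hkg', hkv]
  -- action on the complement
  have hx : ∀ x ∈ rat b F₀, polar Q u x = 0 → polar Q v x = 0 →
      a • g' x ∈ rat b F₀ := by
    intro x hx hux hvx
    have h1 : Has Q H (g u) (g x) := (C.has u hu x hx hsu hux).map hgO hg
    rw [hgu] at h1
    have hugx : polar Q u (g x) = 0 := by
      have h2 := h1.perp
      rw [polar_smul_left, smul_eq_mul] at h2
      exact (mul_eq_zero.1 h2).resolve_left ha
    have h2 : Has Q H u (a • g x) := h1.smul_right hsu hugx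
    obtain ⟨x₀, hx₀, c, hc⟩ := C.thin u hu hu0 _ h2
    -- apply `k⁻¹`
    have hux₀ : polar Q u x₀ = 0 := by
      have h3 : polar Q u (a • g x) = 0 := h2.perp
      rw [hc, polar_add_right, polar_smul_right, huv.polar_left, smul_zero, add_zero] at h3
      exact h3
    have h4 : k (x₀ + (c + polar Q (a • g v - v) x₀) • u) = a • g x := by
      rw [map_add, map_smul, hku, hc, hk, siegel_apply, hux₀]
      simp only [zero_smul, mul_zero]
      module
    have h5 : a • g' x = x₀ + (c + polar Q (a • g v - v) x₀) • u := by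
      apply k.injective
      rw [h4, map_smul, hkg']
    have h6 : polar Q v (a • g' x) = 0 := by
      have h7 : polar Q (g' v) (g' x) = 0 := by rw [polar_map hg'O, hvx]
      rw [← hg'v, polar_smul_left, polar_smul_right, h7]
      simp
    rw [h5] at h6 ⊢
    rw [polar_add_right, polar_smul_right, huv.pair', smul_eq_mul, mul_one] at h6
    have h8 : c + polar Q (a • g v - v) x₀ = - polar Q v x₀ := by linear_combination h6
    rw [h8]
    exact (rat b F₀).add_mem hx₀ (rat_smul (F₀.neg_mem (C.isRat.polar hv hx₀)) hu)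
  -- `a²` is rational
  have ha2 : a * a ∈ F₀ := by
    obtain ⟨e, he, f, hf, hef, h1, h2⟩ := exists_hyp_rat C.nondeg C.isRat ![u, v]
      (by intro i; fin_cases i <;> assumption) (by omega)
    have hue : polar Q u e = 0 := h1 0
    have hve : polar Q v e = 0 := h1 1
    have huf : polar Q u f = 0 := h2 0
    have hvf : polar Q v f = 0 := h2 1
    have h3 := hx (e + f) ((rat b F₀).add_mem he hf)
      (by rw [polar_add_right, hue, huf, add_zero]) (by rw [polar_add_right, hve, hvf, add_zero])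
    have h4 := C.isRat _ h3
    rw [QuadraticMap.map_smul, mem_O.1 hg'O, Q_add, hef.left, hef.right, hef.pair] at h4
    simpa using h4
  have hg'R : g' ∈ stR b F₀ := by
    refine mem_stR_of_forall ha fun t ht => ?_
    have e : t = polar Q v t • u + polar Q u t • v + Cfsg.Agent.LieClassical.OrthTrans.proj Q u v t := by
      rw [Cfsg.Agent.LieClassical.OrthTrans.proj]; module
    have e2 : a • g' t = (polar Q v t * (a * a)) • u + polar Q u t • v +
        a • g' (Cfsg.Agent.LieClassical.OrthTrans.proj Q u v t) := by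
      conv_lhs => rw [e]
      rw [map_add, map_add, map_smul, map_smul, hg'u, smul_add, smul_add, smul_comm a (polar Q u t),
        hg'v, smul_smul, smul_smul]
      congr 3
      ring
    rw [e2]
    refine (rat b F₀).add_mem ((rat b F₀).add_mem
      (rat_smul (F₀.mul_mem (C.isRat.polar hv ht) ha2) hu) (rat_smul (C.isRat.polar hu ht) hv)) ?_
    exact hx _ (proj_rat C.isRat hu hv ht) (polar_proj_left huv t) (polar_proj_right huv t)
  -- images of rational Siegel elements
  have hkmem : ∀ e ∈ rat b F₀, ∀ f ∈ rat b F₀, Q e = 0 → polar Q e f = 0 → Has Q H (k e) (k f) := by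
    intro e he f hf hse hef
    -- rational preimages
    obtain ⟨c, hc, hcm⟩ := (stR b F₀).inv_mem hg'R
    have hinv : ∀ x, g' (g'⁻¹ x) = x := fun x => LinearEquiv.apply_symm_apply g' x
    have he' : c • g'⁻¹ e ∈ rat b F₀ := (hcm e).1 he
    have hf' : c • g'⁻¹ f ∈ rat b F₀ := (hcm f).1 hf
    have hc2 : c * c ∈ F₀ := by
      obtain ⟨x, hx, y, hy, hxy⟩ := exists_hyp_rat C.nondeg C.isRat (m := 0) ![] (by intro i; exact i.elim0) (by omega)
      have h4 := C.isRat _ ((hcm (x + y)).1 ((rat b F₀).add_mem hx hy))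
      rw [QuadraticMap.map_smul] at h4
      have h5 : Q (g'⁻¹ (x + y)) = 1 := by
        have h6 := mem_O.1 hg'O (g'⁻¹ (x + y))
        rw [hinv] at h6
        rw [← h6, Q_add, hxy.1.left, hxy.1.right, hxy.1.pair]
        ring
      rw [h5, smul_eq_mul, mul_one] at h4
      exact h4
    have hse' : Q (g'⁻¹ e) = 0 := by
      have h6 := mem_O.1 hg'O (g'⁻¹ e)
      rw [hinv] at h6
      rw [← h6, hse]
    have hef' : polar Q (g'⁻¹ e) (g'⁻¹ f) = 0 := by
      have h6 := polar_map hg'O (g'⁻¹ e) (g'⁻¹ f)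
      rw [hinv, hinv] at h6
      rw [← h6, hef]
    have hc2' : (c * c)⁻¹ ∈ F₀ := F₀.inv_mem hc2
    have h7 : Has Q H (c • g'⁻¹ e) ((c * c)⁻¹ • c • g'⁻¹ f) := by
      refine C.has _ he' _ (rat_smul hc2' hf') ?_ ?_
      · rw [QuadraticMap.map_smul, hse', smul_zero]
      · rw [polar_smul_right, polar_smul_right, polar_smul_left, hef', smul_zero, smul_zero, smul_zero]
    have h8 : Has Q H (g'⁻¹ e) (c • (c * c)⁻¹ • c • g'⁻¹ f) := by
      refine h7.smul_right hse' ?_
      rw [polar_smul_right, polar_smul_right, hef', smul_zero, smul_zero]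
    have h9 : c • (c * c)⁻¹ • c • g'⁻¹ f = g'⁻¹ f := by
      rw [smul_smul, smul_smul]
      have : c * (c * c)⁻¹ * c = 1 := by field_simp
      rw [this, one_smul]
    rw [h9] at h8
    have h10 := h8.map hgO hg
    have e1 : ∀ y, g (g'⁻¹ y) = k y := by
      intro y
      rw [← hkg', hinv]
    rw [e1, e1] at h10
    exact h10
  -- `w = a g v - v`
  set w := a • g v - v with hwdef
  have hthin : ∀ e ∈ rat b F₀, ∀ f ∈ rat b F₀, Q e = 0 → polar Q e f = 0 → polar Q u e = 0 → polar Q u f = 0 →
      polar Q v e = 0 → polar Q v f = 0 →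
      polar Q e w • f - (polar Q f w + Q f * polar Q e w) • e ∈ rat b F₀ := by
    intro e he f hf hse hef hue huf hve hvf
    have h4 := has_comm_aux hsu hw (C.has e he f hf hse hef) hue huf (hkmem e he f hf hse hef)
    obtain ⟨x₀, hx₀, c, hc⟩ := C.thin u hu hu0 _ h4
    rw [siegel_apply] at hc
    have h5 : polar Q v (w - (w + polar Q e w • f - polar Q f w • e - (Q f * polar Q e w) • e)) = 0 := by
      have : w - (w + polar Q e w • f - polar Q f w • e - (Q f * polar Q e w) • e) =
          (polar Q f w + Q f * polar Q e w) • e - polar Q e w • f := by module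
      rw [this, polar_sub_right, polar_smul_right, polar_smul_right, hve, hvf, smul_zero, smul_zero, sub_zero]
    rw [hc, polar_add_right, polar_smul_right, huv.pair', smul_eq_mul, mul_one] at h5
    have h6 : c ∈ F₀ := by
      have : c = - polar Q v x₀ := by linear_combination h5
      rw [this]
      exact F₀.neg_mem (C.isRat.polar hv hx₀)
    have h7 : w - (w + polar Q e w • f - polar Q f w • e - (Q f * polar Q e w) • e) ∈ rat b F₀ := by
      rw [hc]
      exact (rat b F₀).add_mem hx₀ (rat_smul h6 hu)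
    have h8 := (rat b F₀).neg_mem h7
    have h9 : -(w - (w + polar Q e w • f - polar Q f w • e - (Q f * polar Q e w) • e)) =
        polar Q e w • f - (polar Q f w + Q f * polar Q e w) • e := by module
    rwa [h9] at h8
  -- two hyperbolic pairs
  obtain ⟨e, he, e', he', hee, h1e, h2e⟩ := exists_hyp_rat C.nondeg C.isRat ![u, v]
    (by intro i; fin_cases i <;> assumption) (by omega)
  have hue : polar Q u e = 0 := h1e 0
  have hve : polar Q v e = 0 := h1e 1
  have hue' : polar Q u e' = 0 := h2e 0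
  have hve' : polar Q v e' = 0 := h2e 1
  obtain ⟨f, hf, f', hf', hff, ⟨huf, hvf, hef, he'f⟩, ⟨huf', hvf', hef', he'f'⟩⟩ :=
    exists_hyp_rat_perp2 C.nondeg C.isRat hn hu hv huv he he' hee hue hue' hve hve'
  have hpe : polar Q e w ∈ F₀ := by
    have h4 := C.isRat.polar (hthin e he f hf hee.left hef hue huf hve hvf) hf'
    rw [polar_sub_left, polar_smul_left, polar_smul_left, hff.pair, hef', smul_zero, sub_zero, smul_eq_mul,
      mul_one] at h4
    exact h4
  have hpe' : polar Q e' w ∈ F₀ := by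
    have h4 := C.isRat.polar (hthin e' he' f hf hee.right he'f hue' huf hve' hvf) hf'
    rw [polar_sub_left, polar_smul_left, polar_smul_left, hff.pair, he'f', smul_zero, sub_zero, smul_eq_mul,
      mul_one] at h4
    exact h4
  have hpt1 : ∀ t ∈ rat b F₀, polar Q u t = 0 → polar Q v t = 0 → polar Q e t = 0 → polar Q t w ∈ F₀ := by
    intro t ht hut hvt het
    have h4 := C.isRat.polar (hthin e he t ht hee.left het hue hut hve hvt) he'
    rw [polar_sub_left, polar_smul_left, polar_smul_left, hee.pair, smul_eq_mul, smul_eq_mul, mul_one] at h4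
    have h5 : polar Q e w * polar Q t e' ∈ F₀ := F₀.mul_mem hpe (C.isRat.polar ht he')
    have h6 := F₀.sub_mem h5 h4
    have h7 : polar Q e w * polar Q t e' - (polar Q e w * polar Q t e' - (polar Q t w + Q t * polar Q e w)) -
        Q t * polar Q e w = polar Q t w := by ring
    rw [← h7]
    exact F₀.sub_mem h6 (F₀.mul_mem (C.isRat _ ht) hpe)
  have hpt : ∀ t ∈ rat b F₀, polar Q u t = 0 → polar Q v t = 0 → polar Q t w ∈ F₀ := by
    intro t ht hut hvt
    have het : polar Q e t ∈ F₀ := C.isRat.polar he ht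
    have h4 := hpt1 (t - polar Q e t • e') ((rat b F₀).sub_mem ht (rat_smul het he'))
      (by rw [polar_sub_right, polar_smul_right, hut, hue', smul_zero, sub_zero])
      (by rw [polar_sub_right, polar_smul_right, hvt, hve', smul_zero, sub_zero])
      (by rw [polar_sub_right, polar_smul_right, hee.pair, smul_eq_mul, mul_one, sub_self])
    rw [polar_sub_left, polar_smul_left, smul_eq_mul] at h4
    have h5 := F₀.add_mem h4 (F₀.mul_mem het hpe')
    rwa [sub_add_cancel] at h5
  obtain ⟨w₀, hw₀, c, hc⟩ : ∃ w₀ ∈ rat b F₀, ∃ c : F, w = w₀ + c • u := by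
    refine ⟨w - polar Q v w • u, ?_, polar Q v w, by module⟩
    refine mem_rat_of_polar C.nondeg C.isRat fun t ht => ?_
    have hvt : polar Q v t ∈ F₀ := C.isRat.polar hv ht
    have hut : polar Q u t ∈ F₀ := C.isRat.polar hu ht
    have h4 := hpt (t - polar Q v t • u - polar Q u t • v)
      ((rat b F₀).sub_mem ((rat b F₀).sub_mem ht (rat_smul hvt hu)) (rat_smul hut hv))
      (by rw [polar_sub_right, polar_sub_right, polar_smul_right, polar_smul_right, huv.polar_left, huv.pair]
          simp)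
      (by rw [polar_sub_right, polar_sub_right, polar_smul_right, polar_smul_right, huv.pair', huv.polar_right]
          simp)
    rw [polar_sub_left, polar_sub_left, polar_smul_left, polar_smul_left, hw, smul_zero, sub_zero,
      smul_eq_mul] at h4
    rw [polar_sub_right, polar_smul_right, polar_comm Q t u, smul_eq_mul]
    have h5 : polar Q t w - polar Q v w * polar Q u t = polar Q t w - polar Q u t * polar Q v w := by ring
    rw [h5]
    exact h4
  have hkR : k ∈ stR b F₀ := by
    have huw₀ : polar Q u w₀ = 0 := by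
      have h3 := hw
      rw [hc, polar_add_right, polar_smul_right, huv.polar_left, smul_zero, add_zero] at h3
      exact h3
    have hcu : polar Q u (c • u) = 0 := by
      rw [polar_smul_right, huv.polar_left, smul_zero]
    have e : k = siegel Q u w₀ hsu huw₀ := by
      have h1 := siegel_mul hsu huw₀ hcu (by rw [← hc]; exact hw)
      rw [siegel_self, mul_one] at h1
      rw [h1, hk]
      congr 1
    rw [e]
    exact siegel_mem_stR C.isRat hsu huw₀ hu hw₀
  have : g = k * g' := by rw [hg']; group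
  rw [this]
  exact (stR b F₀).mul_mem hkR hg'R

/-- **If `h ∈ H` maps a rational singular point to a rational point then `h` normalises the rational
structure.** -/
theorem CtxR.rat_image (C : CtxR Q b F₀ H) (hn : 7 ≤ Fintype.card ι) {h : V ≃ₗ[F] V} (hh : h ∈ H)
    {u : V} (hu : u ∈ rat b F₀) (hu0 : u ≠ 0) (hsu : Q u = 0) {c : F} (hc : c ≠ 0)
    (hhu : c • h u ∈ rat b F₀) : h ∈ stR b F₀ := by
  have hs : Q (c • h u) = 0 := by
    rw [QuadraticMap.map_smul, mem_O.1 (C.isom hh), hsu, smul_zero]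
  have h0 : c • h u ≠ 0 := by
    rw [smul_ne_zero_iff]
    exact ⟨hc, fun h0 => hu0 (h.map_eq_zero_iff.1 h0)⟩
  obtain ⟨m, hm, hmu, hmR⟩ := trans_rat C.nondeg C.isRat (by omega) C.has hhu hu hs hsu h0 hu0
  have h1 : (m * h) u = c⁻¹ • u := by
    show m (h u) = _
    have h2 : c • m (h u) = u := by rw [← map_smul, hmu]
    rw [← h2, smul_smul, inv_mul_cancel₀ hc, one_smul, h2]
  have h2 := C.stab_point hn (H.mul_mem hm.1 hh) hu hu0 hsu h1
  have h3 : m ∈ stR b F₀ := mem_stR_of_forall one_ne_zero fun v hv => by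
    rw [one_smul]
    exact hmR v hv
  have : h = m⁻¹ * (m * h) := by group
  rw [this]
  exact (stR b F₀).mul_mem ((stR b F₀).inv_mem h3) h2

/-- **If `D` is totally singular, spanned by rational vectors and by images under `h ∈ H` of rational
vectors, then `h` normalises the rational structure.** -/
theorem CtxR.stab_sub (C : CtxR Q b F₀ H) (hn : 7 ≤ Fintype.card ι) {h : V ≃ₗ[F] V} (hh : h ∈ H)
    {D : Submodule F V} (h0 : D ≠ ⊥) (hs : ∀ x ∈ D, Q x = 0) (hp : ¬ perp Q D ≤ D)
    (hD : RatSub b F₀ D) (hD' : RatSub b F₀ (D.comap (h : V →ₗ[F] V))) : h ∈ stR b F₀ := by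
  have hhO := C.isom hh
  have hpol : ∀ x ∈ D, ∀ y ∈ D, polar Q x y = 0 := by
    intro x hx y hy
    rw [polar, hs _ (D.add_mem hx hy), hs x hx, hs y hy]
    ring
  have : Module.Finite F V := Module.Finite.of_basis b
  obtain ⟨u, hu, huD, hu0⟩ := hD.exists_ne h0
  have h0' : D.comap (h : V →ₗ[F] V) ≠ ⊥ := by
    intro h1
    obtain ⟨d, hd, hd0⟩ := Submodule.exists_mem_ne_zero_of_ne_bot h0
    have h2 : h.symm d ∈ D.comap (h : V →ₗ[F] V) := by
      show h (h.symm d) ∈ D
      rw [LinearEquiv.apply_symm_apply]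
      exact hd
    rw [h1, Submodule.mem_bot] at h2
    exact hd0 (h.symm.map_eq_zero_iff.1 h2)
  obtain ⟨a₁, ha₁, ha₁D, ha₁0⟩ := hD'.exists_ne h0'
  have ha₁D' : h a₁ ∈ D := ha₁D
  -- a rational vector orthogonal to `h⁻¹ D` outside it
  obtain ⟨x, hxp, hxD⟩ := SetLike.not_le_iff_exists.1 hp
  have hx1 : h.symm x ∉ D.comap (h : V →ₗ[F] V) := by
    intro h1
    have h2 : h (h.symm x) ∈ D := h1
    rw [LinearEquiv.apply_symm_apply] at h2
    exact hxD h2
  have hx2 : h.symm x ∈ perp Q (D.comap (h : V →ₗ[F] V)) := by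
    rw [mem_perp]
    intro w hw
    have hw' : h w ∈ D := hw
    rw [← polar_map hhO, LinearEquiv.apply_symm_apply]
    exact mem_perp.1 hxp _ hw'
  obtain ⟨b₁, hb₁, hb₁p, hb₁x⟩ := hD'.exists_sep C.nondeg C.isRat hx1
  have hb₁D : h b₁ ∉ D := by
    intro h1
    apply hb₁x
    exact mem_perp'.1 hx2 b₁ h1
  have hab₁ : polar Q a₁ b₁ = 0 := mem_perp.1 hb₁p _ ha₁D
  have hsa₁ : Q a₁ = 0 := by
    rw [← mem_O.1 hhO]
    exact hs _ ha₁D'
  have hk := (C.has a₁ ha₁ b₁ hb₁ hsa₁ hab₁).map hhO hh
  have hbD : ∀ d ∈ D, polar Q (h b₁) d = 0 := by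
    intro d hd
    have h1 : h (h.symm d) = d := LinearEquiv.apply_symm_apply h d
    rw [← h1, polar_map hhO, polar_comm]
    refine mem_perp.1 hb₁p _ ?_
    show h (h.symm d) ∈ D
    rw [h1]
    exact hd
  set k := siegel Q (h a₁) (h b₁) hk.sing hk.perp with hkdef
  have hkH : k ∈ H := hk.mem _ _
  have hku : k u = u := siegel_fix _ _ (hpol _ ha₁D' _ huD) (hbD _ huD)
  have hkR : k ∈ stR b F₀ := C.stab_point hn hkH hu hu0 (hs u huD) (a := 1)
    (by rw [one_smul, hku])
  obtain ⟨v, hv, hvp, hbv⟩ := hD.exists_sep C.nondeg C.isRat hb₁D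
  have hkv := map_rat_of_fix hkR hu hu0 hku hv
  have hav : polar Q (h a₁) v = 0 := mem_perp.1 hvp _ ha₁D'
  rw [hkdef, siegel_apply, hav] at hkv
  have h1 : polar Q (h b₁) v • h a₁ ∈ rat b F₀ := by
    have h2 := (rat b F₀).sub_mem hv hkv
    have e : v - (v + (0 : F) • h b₁ - polar Q (h b₁) v • h a₁ - (Q (h b₁) * 0) • h a₁) =
        polar Q (h b₁) v • h a₁ := by
      rw [mul_zero]; module
    rwa [e] at h2
  exact C.rat_image hn hh ha₁ ha₁0 hsa₁ hbv h1

/-- **Lemma (line).**  `h ∈ H` mapping a rational line to a rational line normalises the structure. -/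
theorem CtxR.line (C : CtxR Q b F₀ H) (hn : 7 ≤ Fintype.card ι) {h : V ≃ₗ[F] V} (hh : h ∈ H)
    {x y : V} (hx0 : x ≠ 0) (hx : Q x = 0) (hxy : polar Q x y = 0) (hy : Q y = 0)
    (hD : RatSub b F₀ (Submodule.span F {x, y}))
    (hD' : RatSub b F₀ ((Submodule.span F {x, y}).comap (h : V →ₗ[F] V))) : h ∈ stR b F₀ := by
  have : Module.Finite F V := Module.Finite.of_basis b
  have hfin : Module.finrank F V = Fintype.card ι := Module.finrank_eq_card_basis b
  refine C.stab_sub hn hh ?_ (fun z hz => sing_of_span_pair hx hxy hy hz) ?_ hD hD'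
  · intro h0
    have : x ∈ Submodule.span F {x, y} := Submodule.subset_span (by simp)
    rw [h0] at this
    exact hx0 ((Submodule.mem_bot F).1 this)
  · apply not_perp_le C.nondeg
    have := finrank_span_pair_le (F := F) x y
    omega

/-- The root elements attached to images of rational lines under `h ∉ stR` are not in `stR`. -/
theorem CtxR.root_not_mem (C : CtxR Q b F₀ H) (hn : 7 ≤ Fintype.card ι) {h : V ≃ₗ[F] V} (hh : h ∈ H)
    (hnot : h ∉ stR b F₀) {e₁ e₂ : V} (he₁ : e₁ ∈ rat b F₀) (he₂ : e₂ ∈ rat b F₀)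
    (hs₁ : Q e₁ = 0) (hs₂ : Q e₂ = 0) (h12 : polar Q e₁ e₂ = 0) (hi₁ : ∀ c : F, e₁ ≠ c • e₂)
    (hi₂ : ∀ c : F, e₂ ≠ c • e₁) (hu : Q (h e₁) = 0) (hw : polar Q (h e₁) (h e₂) = 0) :
    siegel Q (h e₁) (h e₂) hu hw ∉ stR b F₀ := by
  intro hmem
  obtain ⟨p, hp⟩ := CharP.exists F
  have : Fact p.Prime := ⟨CharP.char_is_prime F p⟩
  have hk : ∀ v ∈ rat b F₀, siegel Q (h e₁) (h e₂) hu hw v ∈ rat b F₀ := fun v hv =>
    map_rat_of_pow (p := p) hmem (siegel_pow_char hu hw) hv
  have hs₂' : Q (h e₂) = 0 := by rw [mem_O.1 (C.isom hh), hs₂]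
  have hD := ratSub_of_siegel C.nondeg hu hw hs₂'
    (fun c hc => hi₁ c (h.injective (by rw [hc, map_smul])))
    (fun c hc => hi₂ c (h.injective (by rw [hc, map_smul]))) hk
  apply hnot
  refine C.line hn hh (x := h e₁) (y := h e₂) ?_ hu hw hs₂' hD ?_
  · intro h0
    apply hi₁ 0
    rw [zero_smul]
    exact h.map_eq_zero_iff.1 h0
  · rw [comap_span_pair]
    refine ratSub_span ?_
    rintro s (rfl | hs)
    · exact he₁
    · rw [Set.mem_singleton_iff] at hs
      rw [hs]; exact he₂

/-- **Opposition.** -/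
theorem CtxR.opp (C : CtxR Q b F₀ H) (hn : 7 ≤ Fintype.card ι) {h : V ≃ₗ[F] V} (hh : h ∈ H)
    (hnot : h ∉ stR b F₀) {e₁ e₂ : V} (he₁ : e₁ ∈ rat b F₀) (he₂ : e₂ ∈ rat b F₀)
    (hs₁ : Q e₁ = 0) (hs₂ : Q e₂ = 0) (h12 : polar Q e₁ e₂ = 0) (hi₁ : ∀ c : F, e₁ ≠ c • e₂)
    (hi₂ : ∀ c : F, e₂ ≠ c • e₁)
    {u₁ u₂ : V} (hu₁ : u₁ ∈ rat b F₀) (hu₂ : u₂ ∈ rat b F₀)
    (hsu₁ : Q u₁ = 0) (hsu₂ : Q u₂ = 0) (hu12 : polar Q u₁ u₂ = 0)
    (hj₁ : u₁ ≠ 0) {α β : F} (h1 : polar Q (α • u₁ + β • u₂) (h e₁) = 0)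
    (h2 : polar Q (α • u₁ + β • u₂) (h e₂) = 0) : α • u₁ + β • u₂ = 0 := by
  by_contra hv0
  have hhO := C.isom hh
  set a := h e₁ with ha
  set b' := h e₂ with hb'
  have hsa : Q a = 0 := by rw [ha, mem_O.1 hhO, hs₁]
  have hsb : Q b' = 0 := by rw [hb', mem_O.1 hhO, hs₂]
  have hab : polar Q a b' = 0 := by rw [ha, hb', polar_map hhO, h12]
  have hynot : siegel Q a b' hsa hab ∉ stR b F₀ :=
    C.root_not_mem hn hh hnot he₁ he₂ hs₁ hs₂ h12 hi₁ hi₂ hsa hab
  have hy : Has Q H a b' := (C.has e₁ he₁ e₂ he₂ hs₁ h12).map hhO hh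
  set y := siegel Q a b' hsa hab with hydef
  have hyH : y ∈ H := hy.mem _ _
  have hind : ∀ s t : F, s • a + t • b' = 0 → s = 0 ∧ t = 0 := by
    intro s t hst
    have h3 : s • e₁ + t • e₂ = 0 := by
      apply h.injective
      rw [map_add, map_smul, map_smul, map_zero]
      exact hst
    constructor
    · by_contra hs
      apply hi₁ (-(s⁻¹ * t))
      have h4 : e₁ = s⁻¹ • (s • e₁) := by rw [smul_smul, inv_mul_cancel₀ hs, one_smul]
      have h5 : s • e₁ = -(t • e₂) := eq_neg_of_add_eq_zero_left h3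
      rw [h4, h5, smul_neg, smul_smul, neg_smul]
    · by_contra ht
      apply hi₂ (-(t⁻¹ * s))
      have h4 : e₂ = t⁻¹ • (t • e₂) := by rw [smul_smul, inv_mul_cancel₀ ht, one_smul]
      have h5 : t • e₂ = -(s • e₁) := eq_neg_of_add_eq_zero_right h3
      rw [h4, h5, smul_neg, smul_smul, neg_smul]
  -- a basis `v, v'` of the line of `u₁, u₂`
  obtain ⟨γ, δ, hdet⟩ : ∃ γ δ : F, α * δ - β * γ = 1 := by
    by_cases hα : α = 0
    · have hβ : β ≠ 0 := by
        rintro rfl
        apply hv0
        rw [hα, zero_smul, zero_smul, add_zero]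
      exact ⟨-β⁻¹, 0, by rw [mul_zero, mul_neg, mul_inv_cancel₀ hβ]; ring⟩
    · exact ⟨0, α⁻¹, by rw [mul_zero, mul_inv_cancel₀ hα]; ring⟩
  have hx : Has Q H u₁ u₂ := C.has u₁ hu₁ u₂ hu₂ hsu₁ hu12
  have hvv' := has_line hx hsu₂ hdet
  set v := α • u₁ + β • u₂ with hv
  set v' := γ • u₁ + δ • u₂ with hv'
  have hu₁v : u₁ = δ • v - β • v' := by
    have : u₁ = (α * δ - β * γ) • u₁ := by rw [hdet, one_smul]
    rw [this, hv, hv']
    module
  have hu₂v : u₂ = α • v' - γ • v := by
    have : u₂ = (α * δ - β * γ) • u₂ := by rw [hdet, one_smul]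
    rw [this, hv, hv']
    module
  have hsv : Q v = 0 := hvv'.sing
  have hvv'0 : polar Q v v' = 0 := hvv'.perp
  have hsv' : Q v' = 0 := by
    apply sing_of_span_pair hsu₁ hu12 hsu₂
    exact Submodule.mem_span_pair.2 ⟨γ, δ, rfl⟩
  -- `a'`, `b''`
  set s := polar Q v' b' with hs
  set t := - polar Q v' a with ht
  by_cases hst : s = 0 ∧ t = 0
  · -- `y` fixes `u₁`
    apply hynot
    have e1 : polar Q a u₁ = 0 := by
      rw [polar_comm, hu₁v, polar_sub_left, polar_smul_left, polar_smul_left, h1]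
      have : polar Q v' a = 0 := by rw [← neg_eq_zero, ← ht]; exact hst.2
      rw [this]; simp
    have e2 : polar Q b' u₁ = 0 := by
      rw [polar_comm, hu₁v, polar_sub_left, polar_smul_left, polar_smul_left, h2, ← hs, hst.1]
      simp
    refine C.stab_point hn hyH hu₁ hj₁ hsu₁ (a := 1) ?_
    rw [one_smul, hydef]
    exact siegel_fix _ _ e1 e2
  obtain ⟨s', t', hdet'⟩ : ∃ s' t' : F, s * t' - t * s' = 1 := by
    by_cases hs0 : s = 0
    · have ht0 : t ≠ 0 := fun h0 => hst ⟨hs0, h0⟩
      exact ⟨-t⁻¹, 0, by rw [mul_zero, mul_neg, mul_inv_cancel₀ ht0]; ring⟩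
    · exact ⟨0, s⁻¹, by rw [mul_zero, mul_inv_cancel₀ hs0]; ring⟩
  have ha'b'' := has_line hy hsb hdet'
  set a' := s • a + t • b' with ha'
  set b'' := s' • a + t' • b' with hb''
  have ha'0 : a' ≠ 0 := fun h0 => hst (hind s t h0)
  have hva' : polar Q v a' = 0 := by
    rw [ha', polar_add_right, polar_smul_right, polar_smul_right, h1, h2]; simp
  have hvb'' : polar Q v b'' = 0 := by
    rw [hb'', polar_add_right, polar_smul_right, polar_smul_right, h1, h2]; simp
  have hv'a' : polar Q v' a' = 0 := by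
    rw [ha', polar_add_right, polar_smul_right, polar_smul_right, ← hs]
    have : polar Q v' a = -t := by rw [ht, neg_neg]
    rw [this, smul_eq_mul, smul_eq_mul]; ring
  have hv'b'' : polar Q v' b'' = 1 := by
    rw [hb'', polar_add_right, polar_smul_right, polar_smul_right, ← hs]
    have : polar Q v' a = -t := by rw [ht, neg_neg]
    rw [this, smul_eq_mul, smul_eq_mul]
    linear_combination hdet'
  have hz := hvv'.comm ha'b'' hva' hv'a'
  rw [hvb'', hv'b'', mul_zero, add_zero, zero_smul, zero_sub, one_smul] at hz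
  have hz' : Has Q H a' v := by
    have := hz.neg
    rwa [neg_neg] at this
  have hsa' : Q a' = 0 := hz'.sing
  have ha'v : polar Q a' v = 0 := hz'.perp
  have haa' : polar Q a a' = 0 := by
    rw [ha', polar_add_right, polar_smul_right, polar_smul_right, hab, polar_self_of_sing hsa]
    simp
  have hb'a' : polar Q b' a' = 0 := by
    rw [ha', polar_add_right, polar_smul_right, polar_smul_right, polar_comm Q b' a, hab,
      polar_self_of_sing hsb]
    simp
  have hya' : y a' = a' := siegel_fix _ _ haa' hb'a'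
  have hyv : y v = v := siegel_fix _ _ (by rw [polar_comm]; exact h1) (by rw [polar_comm]; exact h2)
  have hz2 : siegel Q a' v hsa' ha'v ∈ H := hz'.mem _ _
  have hzu₁ : siegel Q a' v hsa' ha'v u₁ = u₁ := by
    apply siegel_fix
    · rw [hu₁v, polar_sub_right, polar_smul_right, polar_smul_right, ha'v, polar_comm Q a' v',
        hv'a']
      simp
    · rw [hu₁v, polar_sub_right, polar_smul_right, polar_smul_right, hvv'0,
        polar_self_of_sing hsv]
      simp
  have hzR : siegel Q a' v hsa' ha'v ∈ stR b F₀ :=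
    C.stab_point hn hz2 hu₁ hj₁ hsu₁ (a := 1) (by rw [one_smul, hzu₁])
  apply hynot
  by_cases hdep : ∃ c : F, a' = c • v
  · -- the lines meet: `y` stabilises the line of `u₁, u₂`
    obtain ⟨c, hc⟩ := hdep
    have hyv' : y v' = v' - c • v := by
      rw [hydef, siegel_apply, hsb, polar_comm Q a v', polar_comm Q b' v', ← hs]
      have e1 : polar Q v' a = -t := by rw [ht, neg_neg]
      rw [e1, ← hc, ha']
      module
    have hline : ∀ x ∈ Submodule.span F {u₁, u₂}, y x ∈ Submodule.span F {u₁, u₂} := by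
      have hvm : v ∈ Submodule.span F {u₁, u₂} := Submodule.mem_span_pair.2 ⟨α, β, rfl⟩
      have hv'm : v' ∈ Submodule.span F {u₁, u₂} := Submodule.mem_span_pair.2 ⟨γ, δ, rfl⟩
      intro x hx
      obtain ⟨m, n, rfl⟩ := Submodule.mem_span_pair.1 hx
      have e1 : y u₁ = δ • v - β • (v' - c • v) := by
        conv_lhs => rw [hu₁v]
        rw [map_sub, map_smul, map_smul, hyv, hyv']
      have e2 : y u₂ = α • (v' - c • v) - γ • v := by
        conv_lhs => rw [hu₂v]
        rw [map_sub, map_smul, map_smul, hyv, hyv']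
      rw [map_add, map_smul, map_smul, e1, e2]
      have hm := Submodule.sub_mem _ hv'm (Submodule.smul_mem _ c hvm)
      exact Submodule.add_mem _
        (Submodule.smul_mem _ _ (Submodule.sub_mem _ (Submodule.smul_mem _ _ hvm)
          (Submodule.smul_mem _ _ hm)))
        (Submodule.smul_mem _ _ (Submodule.sub_mem _ (Submodule.smul_mem _ _ hm)
          (Submodule.smul_mem _ _ hvm)))
    have : Module.Finite F V := Module.Finite.of_basis b
    have hst := Cfsg.Agent.H883.Bridge.mem_stab_of_le hline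
    have hratD : RatSub b F₀ (Submodule.span F {u₁, u₂}) := by
      refine ratSub_span ?_
      rintro x (rfl | hx)
      · exact hu₁
      · rw [Set.mem_singleton_iff] at hx
        rw [hx]; exact hu₂
    refine C.line hn hyH hj₁ hsu₁ hu12 hsu₂ hratD ?_
    have e : (Submodule.span F {u₁, u₂}).comap (y : V →ₗ[F] V) = Submodule.span F {u₁, u₂} := by
      ext x
      exact (hst x).symm
    rw [e]
    exact hratD
  · push Not at hdep
    have hdep' : ∀ c : F, v ≠ c • a' := by
      intro c hc
      have hc0 : c ≠ 0 := by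
        rintro rfl
        apply hv0
        rw [hc, zero_smul]
      apply hdep c⁻¹
      rw [hc, smul_smul, inv_mul_cancel₀ hc0, one_smul]
    have hD := ratSub_of_siegel C.nondeg hsa' ha'v hsv hdep hdep'
      (fun x hx => map_rat_of_fix hzR hu₁ hj₁ hzu₁ hx)
    refine C.line hn hyH ha'0 hsa' ha'v hsv hD ?_
    have e := comap_span_pair y a' v
    rw [hya', hyv] at e
    rw [e]
    exact hD

open Cfsg.Agent.H888.Rat.Frame

section Rad

variable {e f : Fin 3 → V}

omit [Fintype ι] in
theorem radP_sub [FiniteDimensional F V] (C : CtxR Q b F₀ H) {g : V ≃ₗ[F] V}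
    (hg : g ∈ radP Q H e) (w : V) : g w - w ∈ pl (F := F) e := by
  rw [← perp_perp C.nondeg (pl e), mem_perp]
  intro x hx
  have hx' := hg.2 x (mem_perp_iff.1 hx)
  have h1 := polar_map (C.isom hg.1) x w
  rw [hx'] at h1
  rw [polar_sub_right, h1, sub_self]

omit [Fintype ι] in
theorem radP_pow [FiniteDimensional F V] (C : CtxR Q b F₀ H) (Fr : Frame Q b F₀ e f)
    {g : V ≃ₗ[F] V} (hg : g ∈ radP Q H e) (m : ℕ) (w : V) :
    (g ^ m) w = w + (m : F) • (g w - w) := by
  induction m with
  | zero => simp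
  | succ m ih =>
    have h1 : (g ^ (m + 1)) w = g ((g ^ m) w) := by rw [pow_succ']; rfl
    have h2 : g (g w - w) = g w - w := by
      apply hg.2
      exact mem_perp_iff.1 (Fr.pl_le_perp (radP_sub C hg w))
    rw [h1, ih, map_add, map_smul, h2]
    push_cast
    module

omit [Fintype ι] in
theorem radP_comm [FiniteDimensional F V] (C : CtxR Q b F₀ H) (Fr : Frame Q b F₀ e f)
    {g h : V ≃ₗ[F] V} (hg : g ∈ radP Q H e) (hh : h ∈ radP Q H e) : g * h = h * g := by
  ext w
  show g (h w) = h (g w)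
  have h1 : g (h w - w) = h w - w := hg.2 _ (mem_perp_iff.1 (Fr.pl_le_perp (radP_sub C hh w)))
  have h2 : h (g w - w) = g w - w := hh.2 _ (mem_perp_iff.1 (Fr.pl_le_perp (radP_sub C hg w)))
  have e1 : g (h w) = g (h w - w) + g w := by rw [map_sub]; abel
  have e2 : h (g w) = h (g w - w) + h w := by rw [map_sub]; abel
  rw [e1, e2, h1, h2]
  abel

theorem siegel_mem_radP (C : CtxR Q b F₀ H) (Fr : Frame Q b F₀ e f) (i j : Fin 3) :
    siegel Q (e i) (e j) (Fr.Qe i) (Fr.ee i j) ∈ radP Q H e := by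
  refine ⟨(C.has (e i) (Fr.e_mem i) (e j) (Fr.e_mem j) (Fr.Qe i) (Fr.ee i j)).mem _ _,
    fun v hv => siegel_fix _ _ (hv i) (hv j)⟩

omit [Fintype ι] in
theorem radP_not_cyclic [FiniteDimensional F V] [Fintype ι] (C : CtxR Q b F₀ H)
    (Fr : Frame Q b F₀ e f) : ¬ IsCyclic (radP Q H e) := by
  intro hc
  have : Finite (V ≃ₗ[F] V) := by
    have : Finite V := Module.finite_of_finite F
    exact Finite.of_injective (fun g : V ≃ₗ[F] V => (g : V → V)) DFunLike.coe_injective
  obtain ⟨⟨g, hg⟩, hgen⟩ := IsCyclic.exists_monoid_generator (α := radP Q H e)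
  obtain ⟨i, hi⟩ := hgen ⟨_, siegel_mem_radP C Fr 0 1⟩
  obtain ⟨j, hj⟩ := hgen ⟨_, siegel_mem_radP C Fr 0 2⟩
  have hi' : g ^ i = siegel Q (e 0) (e 1) (Fr.Qe 0) (Fr.ee 0 1) := congrArg Subtype.val hi
  have hj' : g ^ j = siegel Q (e 0) (e 2) (Fr.Qe 0) (Fr.ee 0 2) := congrArg Subtype.val hj
  have e1 : (i : F) • (g (f 0) - f 0) = e 1 := by
    have h1 := radP_pow C Fr hg i (f 0)
    rw [hi', siegel_apply, Fr.Qe, Fr.ef, Fr.ef] at h1
    simp only [if_true, Fin.isValue, one_ne_zero, if_false, one_smul, zero_smul, zero_mul,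
      sub_zero] at h1
    exact (add_left_cancel h1).symm
  have e2 : (j : F) • (g (f 0) - f 0) = e 2 := by
    have h1 := radP_pow C Fr hg j (f 0)
    rw [hj', siegel_apply, Fr.Qe, Fr.ef, Fr.ef] at h1
    simp only [if_true, Fin.isValue, if_false, one_smul, zero_smul, zero_mul,
      sub_zero, Fin.reduceEq] at h1
    exact (add_left_cancel h1).symm
  have h3 : (j : F) • e 1 = (i : F) • e 2 := by
    rw [← e1, ← e2, smul_smul, smul_smul, mul_comm]
  have h4 : (j : F) = 0 := by
    have := congrArg (fun z => polar Q (f 1) z) h3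
    simp only [polar_smul_right, Fr.fe] at this
    simpa using this
  rw [h4, zero_smul] at e2
  have h5 := Fr.ef 2 2
  rw [← e2, polar_zero_left] at h5
  simp at h5

theorem radP_le_stR (C : CtxR Q b F₀ H) (hn : 7 ≤ Fintype.card ι) (Fr : Frame Q b F₀ e f)
    {g : V ≃ₗ[F] V} (hg : g ∈ radP Q H e) : g ∈ stR b F₀ := by
  have h0 : e 0 ≠ 0 := by
    intro h
    have := Fr.ef 0 0
    rw [h, polar_zero_left] at this
    simp at this
  refine C.stab_point hn hg.1 (Fr.e_mem 0) h0 (Fr.Qe 0) (a := 1) ?_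
  rw [one_smul]
  exact hg.2 _ fun i => Fr.ee i 0

theorem radP_map_rat (C : CtxR Q b F₀ H) (hn : 7 ≤ Fintype.card ι) (Fr : Frame Q b F₀ e f)
    {g : V ≃ₗ[F] V} (hg : g ∈ radP Q H e) {v : V} (hv : v ∈ rat b F₀) : g v ∈ rat b F₀ := by
  have h0 : e 0 ≠ 0 := by
    intro h
    have := Fr.ef 0 0
    rw [h, polar_zero_left] at this
    simp at this
  exact map_rat_of_fix (radP_le_stR C hn Fr hg) (Fr.e_mem 0) h0 (hg.2 _ fun i => Fr.ee i 0) hv

/-- Centralisers of nonidentity elements of the radical group. -/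
theorem radP_cent (C : CtxR Q b F₀ H) (hn : 7 ≤ Fintype.card ι) (Fr : Frame Q b F₀ e f)
    {g : V ≃ₗ[F] V} (hg : g ∈ radP Q H e) (hg1 : g ≠ 1) {n : V ≃ₗ[F] V} (hnH : n ∈ H)
    (hcomm : n * g = g * n) : n ∈ stR b F₀ := by
  have : Module.Finite F V := Module.Finite.of_basis b
  have hfin : Module.finrank F V = Fintype.card ι := Module.finrank_eq_card_basis b
  set D := LinearMap.range (g.toLinearMap - LinearMap.id) with hD
  have hDpl : D ≤ pl (F := F) e := by
    rintro _ ⟨w, rfl⟩
    exact radP_sub C hg w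
  have hD0 : D ≠ ⊥ := by
    intro h0
    apply hg1
    ext w
    have h1 : (g.toLinearMap - LinearMap.id : V →ₗ[F] V) w ∈ D := ⟨w, rfl⟩
    rw [h0, Submodule.mem_bot] at h1
    exact sub_eq_zero.1 h1
  have hRat : RatSub b F₀ D := ratSub_range fun v hv => radP_map_rat C (by omega) Fr hg hv
  have hst : ∀ x ∈ D, n x ∈ D := by
    rintro _ ⟨w, rfl⟩
    refine ⟨n w, ?_⟩
    show g (n w) - n w = n (g w - w)
    have h1 : n (g w) = g (n w) := LinearEquiv.congr_fun hcomm w
    rw [map_sub, h1]
  have hst' := Cfsg.Agent.H883.Bridge.mem_stab_of_le hst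
  refine C.stab_sub (by omega) hnH hD0 (fun x hx => Fr.Q_pl (hDpl hx)) ?_ hRat ?_
  · apply not_perp_le C.nondeg
    have h1 := Submodule.finrank_mono hDpl
    have h2 := finrank_pl_le (F := F) (e := e)
    omega
  · have e : D.comap (n : V →ₗ[F] V) = D := by
      ext x
      exact (hst' x).symm
    rw [e]
    exact hRat

end Rad

/-- **A thin overgroup of the normaliser of a rational structure is contained in it.** -/
theorem CtxR.le_stR (C : CtxR Q b F₀ H) (hn : 7 ≤ Fintype.card ι) {r : ℕ} (hr : r.Prime)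
    (hcard : Nat.card F = Nat.card F₀ ^ r) : H ≤ stR b F₀ := by
  intro h hh
  by_contra hnot
  have hmf : Module.Finite F V := Module.Finite.of_basis b
  have hfin : Module.finrank F V = Fintype.card ι := Module.finrank_eq_card_basis b
  have hVfin : Finite V := Module.finite_of_finite F
  have hGfin : Finite (V ≃ₗ[F] V) :=
    Finite.of_injective (fun g : V ≃ₗ[F] V => (g : V → V)) DFunLike.coe_injective
  obtain ⟨e, f, Fr⟩ := exists_frame C.nondeg C.isRat hn
  have hhO := C.isom hh
  have hne : ∀ i, e i ≠ 0 := by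
    intro i h0
    have := Fr.ef i i
    rw [h0, polar_zero_left, if_pos rfl] at this
    exact zero_ne_one this
  have hi₁ : ∀ c : F, e 0 ≠ c • e 1 := by
    intro c hc
    have := Fr.ef 0 0
    rw [hc, polar_smul_left, Fr.ef] at this
    simp at this
  have hi₂ : ∀ c : F, e 1 ≠ c • e 0 := by
    intro c hc
    have := Fr.ef 1 1
    rw [hc, polar_smul_left, Fr.ef] at this
    simp at this
  set a := h (e 0) with ha
  set b' := h (e 1) with hb'
  have hsa : Q a = 0 := by rw [ha, mem_O.1 hhO, Fr.Qe]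
  have hab : polar Q a b' = 0 := by rw [ha, hb', polar_map hhO, Fr.ee]
  have hynot : siegel Q a b' hsa hab ∉ stR b F₀ :=
    C.root_not_mem (by omega) hh hnot (Fr.e_mem 0) (Fr.e_mem 1) (Fr.Qe 0) (Fr.Qe 1) (Fr.ee 0 1)
      hi₁ hi₂ hsa hab
  have hyH : siegel Q a b' hsa hab ∈ H :=
    ((C.has (e 0) (Fr.e_mem 0) (e 1) (Fr.e_mem 1) (Fr.Qe 0) (Fr.ee 0 1)).map hhO hh).mem _ _
  have hopp : ∀ {u₁ u₂ : V}, u₁ ∈ rat b F₀ → u₂ ∈ rat b F₀ → Q u₁ = 0 → Q u₂ = 0 →
      polar Q u₁ u₂ = 0 → u₁ ≠ 0 → ∀ {α β : F}, polar Q (α • u₁ + β • u₂) a = 0 →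
      polar Q (α • u₁ + β • u₂) b' = 0 → α • u₁ + β • u₂ = 0 := by
    intro u₁ u₂ h1 h2 h3 h4 h5 h6 α β h7 h8
    exact C.opp (by omega) hh hnot (Fr.e_mem 0) (Fr.e_mem 1) (Fr.Qe 0) (Fr.Qe 1) (Fr.ee 0 1)
      hi₁ hi₂ h1 h2 h3 h4 h5 h6 h7 h8
  -- pairings
  set A : Fin 3 → F := fun i => polar Q (e i) a with hA
  set B : Fin 3 → F := fun i => polar Q (e i) b' with hB
  have hAi : ∀ i, polar Q (e i) a = A i := fun _ => rfl
  have hBi : ∀ i, polar Q (e i) b' = B i := fun _ => rfl
  -- the determinant for the line `e 0, e 1` is nonzero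
  have hdet : A 0 * B 1 - A 1 * B 0 ≠ 0 := by
    intro h0
    by_cases hz : A 0 = 0 ∧ A 1 = 0
    · -- then combine using `B`
      have h1 := hopp (Fr.e_mem 0) (Fr.e_mem 1) (Fr.Qe 0) (Fr.Qe 1) (Fr.ee 0 1) (hne 0)
        (α := B 1) (β := -B 0)
        (by rw [polar_add_left, polar_smul_left, polar_smul_left, hAi, hAi, hz.1, hz.2]; simp)
        (by rw [polar_add_left, polar_smul_left, polar_smul_left, hBi, hBi]
            simp only [smul_eq_mul]; ring)
      have hB1 : B 1 = 0 := by
        have := congrArg (fun z => polar Q (f 0) z) h1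
        simp only [polar_add_right, polar_smul_right, Fr.fe, polar_zero_right] at this
        simpa using this
      have h2 := hopp (Fr.e_mem 0) (Fr.e_mem 1) (Fr.Qe 0) (Fr.Qe 1) (Fr.ee 0 1) (hne 0)
        (α := 0) (β := 1)
        (by rw [zero_smul, zero_add, one_smul, hAi, hz.2])
        (by rw [zero_smul, zero_add, one_smul, hBi, hB1])
      rw [zero_smul, zero_add, one_smul] at h2
      exact hne 1 h2
    · have h1 := hopp (Fr.e_mem 0) (Fr.e_mem 1) (Fr.Qe 0) (Fr.Qe 1) (Fr.ee 0 1) (hne 0)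
        (α := A 1) (β := -A 0)
        (by rw [polar_add_left, polar_smul_left, polar_smul_left, hAi, hAi]
            simp only [smul_eq_mul]; ring)
        (by rw [polar_add_left, polar_smul_left, polar_smul_left, hBi, hBi]
            simp only [smul_eq_mul]; linear_combination -h0)
      apply hz
      constructor
      · have := congrArg (fun z => polar Q (f 1) z) h1
        simp only [polar_add_right, polar_smul_right, Fr.fe, polar_zero_right] at this
        simpa using this
      · have := congrArg (fun z => polar Q (f 0) z) h1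
        simp only [polar_add_right, polar_smul_right, Fr.fe, polar_zero_right] at this
        simpa using this
  -- the vector `k`
  set k : Fin 3 → F := ![A 1 * B 2 - A 2 * B 1, A 2 * B 0 - A 0 * B 2, A 0 * B 1 - A 1 * B 0]
    with hk
  have hk0 : k 0 = A 1 * B 2 - A 2 * B 1 := rfl
  have hk1 : k 1 = A 2 * B 0 - A 0 * B 2 := rfl
  have hk2 : k 2 = A 0 * B 1 - A 1 * B 0 := rfl
  set kv : V := k 0 • e 0 + k 1 • e 1 + k 2 • e 2 with hkv
  have hkva : polar Q kv a = 0 := by
    rw [hkv, polar_add_left, polar_add_left, polar_smul_left, polar_smul_left, polar_smul_left,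
      hAi, hAi, hAi, hk0, hk1, hk2]
    simp only [smul_eq_mul]; ring
  have hkvb : polar Q kv b' = 0 := by
    rw [hkv, polar_add_left, polar_add_left, polar_smul_left, polar_smul_left, polar_smul_left,
      hBi, hBi, hBi, hk0, hk1, hk2]
    simp only [smul_eq_mul]; ring
  have hkpl : kv ∈ pl (F := F) e := by
    rw [hkv]
    exact Submodule.add_mem _ (Submodule.add_mem _ (Submodule.smul_mem _ _ (e_mem_pl 0))
      (Submodule.smul_mem _ _ (e_mem_pl 1))) (Submodule.smul_mem _ _ (e_mem_pl 2))
  have hfk : ∀ i, polar Q (f i) kv = k i := by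
    intro i
    rw [hkv]
    simp only [polar_add_right, polar_smul_right, Fr.fe]
    fin_cases i <;> simp
  have hkv0 : kv ≠ 0 := by
    intro h0
    have := hfk 2
    rw [h0, polar_zero_right] at this
    exact hdet (by rw [← hk2, ← this])
  -- `k` is `F₀`-independent
  have hind : ∀ m : Fin 3 → F, (∀ i, m i ∈ F₀) → ∑ i, m i * k i = 0 → m = 0 := by
    intro m hm hsum
    by_contra hm0
    obtain ⟨i, hi⟩ := Function.ne_iff.1 hm0
    rw [Pi.zero_apply] at hi
    -- the two other indices
    obtain ⟨j, l, hjl, hij, hil, hall⟩ : ∃ j l : Fin 3, j ≠ l ∧ i ≠ j ∧ i ≠ l ∧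
        ∀ g : Fin 3 → V, ∑ x, g x = g i + g j + g l := by
      fin_cases i
      · exact ⟨1, 2, by decide, by decide, by decide, fun g => by rw [Fin.sum_univ_three]; rfl⟩
      · exact ⟨0, 2, by decide, by decide, by decide, fun g => by
          rw [Fin.sum_univ_three]; show g 0 + g 1 + g 2 = g 1 + g 0 + g 2; abel⟩
      · exact ⟨0, 1, by decide, by decide, by decide, fun g => by
          rw [Fin.sum_univ_three]; show g 0 + g 1 + g 2 = g 2 + g 0 + g 1; abel⟩
    have hall' : ∑ x, m x * k x = m i * k i + m j * k j + m l * k l := by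
      have hn2 : (Finset.univ : Finset (Fin 3)) = {i, j, l} := by
        symm
        apply Finset.eq_univ_of_card
        rw [Finset.card_insert_of_notMem (by simp [hij, hil]), Finset.card_pair hjl]
        rfl
      rw [hn2, Finset.sum_insert (by simp [hij, hil]), Finset.sum_pair hjl]
      ring
    rw [hall'] at hsum
    have hki : k i = -((m i)⁻¹ * m j) * k j - ((m i)⁻¹ * m l) * k l := by
      have h1 : m i * k i = -(m j * k j + m l * k l) := by linear_combination hsum
      have h2 : k i = (m i)⁻¹ * (m i * k i) := by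
        rw [← mul_assoc, inv_mul_cancel₀ hi, one_mul]
      rw [h2, h1]; ring
    set s := (m i)⁻¹ * m j with hs
    set t := (m i)⁻¹ * m l with ht
    have hsF : s ∈ F₀ := F₀.mul_mem (F₀.inv_mem (hm i)) (hm j)
    have htF : t ∈ F₀ := F₀.mul_mem (F₀.inv_mem (hm i)) (hm l)
    have hkv' : kv = k j • (e j - s • e i) + k l • (e l - t • e i) := by
      have h1 : kv = ∑ x, k x • e x := by rw [Fin.sum_univ_three]
      rw [h1, hall, hki]
      module
    have hR : ∀ (x : F) (j : Fin 3), x ∈ F₀ → e j - x • e i ∈ rat b F₀ := fun x j hx =>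
      (rat b F₀).sub_mem (Fr.e_mem j) (rat_smul hx (Fr.e_mem i))
    have hpl : ∀ (x : F) (j : Fin 3), e j - x • e i ∈ pl (F := F) e := fun x j =>
      Submodule.sub_mem _ (e_mem_pl j) (Submodule.smul_mem _ _ (e_mem_pl i))
    have hpp : polar Q (e j - s • e i) (e l - t • e i) = 0 := by
      rw [polar_sub_left, polar_sub_right, polar_sub_right, polar_smul_left, polar_smul_left,
        polar_smul_right, polar_smul_right]
      simp only [Fr.ee]
      simp
    have hne' : e j - s • e i ≠ 0 := by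
      intro h0
      have := congrArg (fun z => polar Q (f j) z) h0
      simp only [polar_sub_right, polar_smul_right, Fr.fe, polar_zero_right] at this
      simp [hij] at this
    have h1 := hopp (hR s j hsF) (hR t l htF) (Fr.Q_pl (hpl s j)) (Fr.Q_pl (hpl t l)) hpp hne'
      (α := k j) (β := k l) (by rw [← hkv']; exact hkva) (by rw [← hkv']; exact hkvb)
    exact hkv0 (by rw [hkv', h1])
  -- the group `G`
  let G : Subgroup (V ≃ₗ[F] V) :=
    { carrier := {g | g ∈ H ∧ g kv = kv ∧ ∀ v, (∀ i, polar Q (e i) v = 0) → polar Q a v = 0 →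
        polar Q b' v = 0 → g v = v}
      mul_mem' := fun {g g'} hg hg' => ⟨H.mul_mem hg.1 hg'.1,
        by show g (g' kv) = kv; rw [hg'.2.1, hg.2.1],
        fun v h1 h2 h3 => by show g (g' v) = v; rw [hg'.2.2 v h1 h2 h3, hg.2.2 v h1 h2 h3]⟩
      one_mem' := ⟨H.one_mem, rfl, fun _ _ _ _ => rfl⟩
      inv_mem' := fun {g} hg => ⟨H.inv_mem hg.1, by
          have h2 : g⁻¹ (g kv) = kv := LinearEquiv.symm_apply_apply g kv
          rwa [hg.2.1] at h2, fun v h1 h2 h3 => by
          have h4 : g⁻¹ (g v) = v := LinearEquiv.symm_apply_apply g v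
          rwa [hg.2.2 v h1 h2 h3] at h4⟩ }
  have hmemG : ∀ g : V ≃ₗ[F] V, g ∈ G ↔ (g ∈ H ∧ g kv = kv ∧ ∀ v, (∀ i, polar Q (e i) v = 0) →
      polar Q a v = 0 → polar Q b' v = 0 → g v = v) := fun _ => Iff.rfl
  have hPG : radP Q H e ≤ G := by
    intro g hg
    refine ⟨hg.1, ?_, fun v h1 _ _ => hg.2 v h1⟩
    exact hg.2 _ (mem_perp_iff.1 (Fr.pl_le_perp hkpl))
  have hyG : siegel Q a b' hsa hab ∈ G := by
    refine ⟨hyH, ?_, fun v _ h2 h3 => siegel_fix _ _ h2 h3⟩
    exact siegel_fix _ _ (by rw [polar_comm]; exact hkva) (by rw [polar_comm]; exact hkvb)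
  obtain ⟨p, hp⟩ := CharP.exists F
  have : Fact p.Prime := ⟨CharP.char_is_prime F p⟩
  have key := Cfsg.Agent.H888.StrongP.le_of_self_normalizing (p := p) (radP Q H e) G (stR b F₀)
    hPG ?_ (fun x hx y hy => radP_comm C Fr hx hy) (radP_not_cyclic C Fr)
    (fun x hx => radP_le_stR C (by omega) Fr hx)
    (fun g hg hg1 n hn' hc => radP_cent C hn Fr hg hg1 hn'.1 hc) ?_
  · exact hynot (key hyG)
  · -- p-group
    rintro ⟨g, hg⟩
    refine ⟨1, Subtype.ext ?_⟩
    show g ^ (p ^ 1) = 1
    ext w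
    rw [pow_one, radP_pow C Fr hg, CharP.cast_eq_zero, zero_smul, add_zero]
    rfl
  · -- self-normalising
    intro n hnG hnP
    -- `n` stabilises the plane
    have hnpl' : ∀ g ∈ radP Q H e, ∀ t, n (g t - t) ∈ pl (F := F) e := by
      intro g hg t
      have h1 := radP_sub C (hnP g hg) (n t)
      have h2 : (n * g * n⁻¹) (n t) = n (g t) := by
        show n (g (n⁻¹ (n t))) = n (g t)
        have : n⁻¹ (n t) = t := LinearEquiv.symm_apply_apply n t
        rw [this]
      rw [h2, ← map_sub] at h1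
      exact h1
    have hn0 : n (e 0) ∈ pl (F := F) e := by
      have h1 := hnpl' _ (siegel_mem_radP C Fr 1 0) (f 1)
      rw [siegel_apply, Fr.Qe, Fr.ef, Fr.ef] at h1
      simp only [if_true, Fin.isValue, zero_ne_one, if_false, one_smul, zero_smul, zero_mul,
        sub_zero, add_sub_cancel_left] at h1
      exact h1
    have hn1 : n (e 1) ∈ pl (F := F) e := by
      have h1 := hnpl' _ (siegel_mem_radP C Fr 0 1) (f 0)
      rw [siegel_apply, Fr.Qe, Fr.ef, Fr.ef] at h1
      simp only [if_true, Fin.isValue, one_ne_zero, if_false, one_smul, zero_smul, zero_mul,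
        sub_zero, add_sub_cancel_left] at h1
      exact h1
    have hn2 : n (e 2) ∈ pl (F := F) e := by
      have h1 := hnpl' _ (siegel_mem_radP C Fr 0 2) (f 0)
      rw [siegel_apply, Fr.Qe, Fr.ef, Fr.ef] at h1
      simp only [if_true, Fin.isValue, if_false, one_smul, zero_smul, zero_mul,
        sub_zero, add_sub_cancel_left, Fin.reduceEq] at h1
      exact h1
    have hnall : ∀ i, n (e i) ∈ pl (F := F) e := by
      intro i
      fin_cases i
      exacts [hn0, hn1, hn2]
    have hnst : ∀ x ∈ pl (F := F) e, n x ∈ pl (F := F) e := by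
      intro x hx
      rw [Fr.exists_coord hx, map_sum]
      refine Submodule.sum_mem _ fun i _ => ?_
      rw [map_smul]
      exact Submodule.smul_mem _ _ (hnall i)
    have hst' := Cfsg.Agent.H883.Bridge.mem_stab_of_le hnst
    have hnR : n ∈ stR b F₀ := by
      refine C.stab_sub (by omega) hnG.1 ?_ (fun x hx => Fr.Q_pl hx) ?_ Fr.ratSub_pl ?_
      · intro h0
        have h1 := e_mem_pl (F := F) (e := e) 0
        rw [h0] at h1
        exact hne 0 ((Submodule.mem_bot F).1 h1)
      · apply not_perp_le C.nondeg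
        have h2 := finrank_pl_le (F := F) (e := e)
        omega
      · have e' : (pl (F := F) e).comap (n : V →ₗ[F] V) = pl e := by
          ext x
          exact (hst' x).symm
        rw [e']
        exact Fr.ratSub_pl
    obtain ⟨c, hc, hcn⟩ := hnR
    have hnO := C.isom hnG.1
    have hc2 : c ^ 2 ∈ F₀ := by
      have h1 := (hcn (e 0 + f 0)).1 ((rat b F₀).add_mem (Fr.e_mem 0) (Fr.f_mem 0))
      have h2 := C.isRat _ h1
      rw [QuadraticMap.map_smul, mem_O.1 hnO, Q_add, Fr.Qe, Fr.Qf, Fr.ef] at h2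
      simp only [if_true, zero_add, smul_eq_mul, mul_one] at h2
      rwa [pow_two]
    have hcF : c ∈ F₀ := by
      rcases Cfsg.Agent.H888.FieldDich.sq_mem F₀ hr hcard hc2 with h1 | h1
      · exact h1
      · exfalso
        obtain ⟨m, hm, hm0, hsum⟩ := exists_relation F₀ h1 k
        exact hm0 (hind m hm hsum)
    have hnrat : ∀ v ∈ rat b F₀, n v ∈ rat b F₀ := by
      intro v hv
      have h1 := rat_smul (F₀.inv_mem hcF) ((hcn v).1 hv)
      rwa [smul_smul, inv_mul_cancel₀ hc, one_smul] at h1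
    -- `n` is trivial on the plane
    have hne1 : ∀ i, n (e i) = e i := by
      have hcoord : ∀ j, ∑ i, (polar Q (f j) (n (e i)) - if i = j then 1 else 0) * k i = 0 := by
        intro j
        have h1 : polar Q (f j) (n kv) = k j := by rw [hnG.2.1, hfk]
        rw [hkv] at h1
        simp only [map_add, map_smul, polar_add_right, polar_smul_right, smul_eq_mul] at h1
        rw [Fin.sum_univ_three]
        fin_cases j
        · simp only [Fin.zero_eta, Fin.isValue, if_true, one_ne_zero, if_false, sub_zero,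
            Fin.reduceEq] at h1 ⊢
          linear_combination h1
        · simp only [Fin.mk_one, Fin.isValue, if_true, zero_ne_one, if_false, sub_zero,
            Fin.reduceEq] at h1 ⊢
          linear_combination h1
        · simp only [Fin.reduceFinMk, Fin.isValue, if_true, if_false, sub_zero,
            Fin.reduceEq] at h1 ⊢
          linear_combination h1
      intro i
      have h2 : ∀ j, polar Q (f j) (n (e i)) = if i = j then 1 else 0 := by
        intro j
        have h3 := hind (fun i => polar Q (f j) (n (e i)) - if i = j then 1 else 0) ?_ (hcoord j)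
        · have h4 := congrFun h3 i
          exact sub_eq_zero.1 h4
        · intro i
          refine F₀.sub_mem (C.isRat.polar (Fr.f_mem j) (hnrat _ (Fr.e_mem i))) ?_
          split_ifs
          · exact F₀.one_mem
          · exact F₀.zero_mem
      rw [Fr.exists_coord (hnall i)]
      simp_rw [h2]
      simp
    -- conclusion
    refine ⟨hnG.1, fun v hv => ?_⟩
    -- correct `v` by an element of the plane
    set d := A 0 * B 1 - A 1 * B 0 with hd
    set x := polar Q a v with hx
    set y := polar Q b' v with hy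
    set s : V := (d⁻¹ * (x * B 1 - y * A 1)) • e 0 + (d⁻¹ * (A 0 * y - B 0 * x)) • e 1 with hs
    have hsa' : polar Q a s = x := by
      rw [hs, polar_add_right, polar_smul_right, polar_smul_right, polar_comm Q a, hAi,
        polar_comm Q a, hAi]
      simp only [smul_eq_mul]
      have : d⁻¹ * (x * B 1 - y * A 1) * A 0 + d⁻¹ * (A 0 * y - B 0 * x) * A 1 = d⁻¹ * d * x := by
        rw [hd]; ring
      rw [this, inv_mul_cancel₀ hdet, one_mul]
    have hsb' : polar Q b' s = y := by
      rw [hs, polar_add_right, polar_smul_right, polar_smul_right, polar_comm Q b', hBi,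
        polar_comm Q b', hBi]
      simp only [smul_eq_mul]
      have : d⁻¹ * (x * B 1 - y * A 1) * B 0 + d⁻¹ * (A 0 * y - B 0 * x) * B 1 = d⁻¹ * d * y := by
        rw [hd]; ring
      rw [this, inv_mul_cancel₀ hdet, one_mul]
    have hns : n s = s := by
      rw [hs, map_add, map_smul, map_smul, hne1, hne1]
    have hes : ∀ i, polar Q (e i) s = 0 := by
      intro i
      rw [hs, polar_add_right, polar_smul_right, polar_smul_right, Fr.ee, Fr.ee]
      simp
    have h1 : n (v - s) = v - s := by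
      refine hnG.2.2 _ (fun i => ?_) ?_ ?_
      · rw [polar_sub_right, hv i, hes i, sub_zero]
      · rw [polar_sub_right, hsa', ← hx, sub_self]
      · rw [polar_sub_right, hsb', ← hy, sub_self]
    have h2 : n v = n (v - s) + n s := by rw [← map_add, sub_add_cancel]
    rw [h2, h1, hns, sub_add_cancel]

/-- **Overgroups of the rational Siegel elements.** -/
theorem overgroups_rat {H : Subgroup (V ≃ₗ[F] V)} (hQ : Nondeg Q) (hR : IsRat Q b F₀)
    (hn : 7 ≤ Fintype.card ι) {r : ℕ} (hr : r.Prime) (hcard : Nat.card F = Nat.card F₀ ^ r)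
    (hH : HasRat Q b F₀ H) (hHE : H ≤ E Q) : H ≤ stR b F₀ ∨ H = E Q := by
  rcases thin_or_E_le hQ hR hn hr hcard hH with h | h
  · left
    have C : CtxR Q b F₀ H := ⟨hQ, hR, hH, hHE, h⟩
    exact C.le_stR hn hr hcard
  · right
    exact le_antisymm hHE h

end Cfsg.Agent.H889.Gen.Rat
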