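import Cfsg.Agent.CpAut.OrthRow
import Cfsg.Agent.H889.Gen.Over
import Cfsg.Agent.H972.Gen.FieldAbs
import Cfsg.Agent.H27.Psl.Field

/-!
# S2187, orthogonal rows: field automorphisms, descent (helper889)

The setting of `CpAut.Fix` for semisimilitudes in all characteristics (`sett`), the rational structure of the fixed
vectors and the hypotheses `hover`, `hcent` of `Dat.of_sett`.
-/

set_option autoImplicit false
set_option linter.unusedSectionVars false

namespace Cfsg.Agent.H889.Gen.Fld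

open QuadraticMap Cfsg
open Cfsg.Agent.LieClassical.OrthCore Cfsg.Agent.LieClassical.OrthTrans Cfsg.Agent.LieClassical.OrthFinite
open Cfsg.Agent.ClassicalGeometry.OrthSemi
open Cfsg.Agent.CpAut.Descent (Semi)
open Cfsg.Agent.CpAut.Psl (fixf mem_fixf)
open Cfsg.Agent.CpAut.Fix
open Cfsg.Agent.CpAut.Orth (toSemi J J_apply J_single J_injective M_J M_eq exists_J ext ext_basis ext_J ext_injective
  ext_comm exists_ext polar_J nondeg_zero mem_O_of_ext mem_center_E comm_of_fixed)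
open Cfsg.Agent.H888.Rat Cfsg.Agent.H883.Root
open scoped commutatorElement

variable {F V : Type*} [Field F] [AddCommGroup V] [Module F V] {Q : QuadraticForm F V}
variable {ι : Type*} [Fintype ι] [DecidableEq ι] {σ : F ≃+* F} {b : Module.Basis ι F V}
variable {Q₀ : QuadraticForm (fixf σ) (ι → fixf σ)} {e : F}

theorem ext_mem_O (hQ₀ : ∀ x, Q (J σ b x) = e * (Q₀ x : F))
    {g : (ι → fixf σ) ≃ₗ[fixf σ] (ι → fixf σ)} (hg : g ∈ O Q₀) : ext σ b g ∈ O Q := by
  have hB : (polarBilin Q).compl₁₂ (ext σ b g).toLinearMap (ext σ b g).toLinearMap = polarBilin Q := by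
    apply LinearMap.ext_basis b b
    intro i j
    rw [LinearMap.compl₁₂_apply]
    change polar Q (ext σ b g (b i)) (ext σ b g (b j)) = polar Q (b i) (b j)
    rw [ext_basis, ext_basis, polar_J hQ₀, ← J_single (σ := σ) (b := b) i, ← J_single (σ := σ) (b := b) j,
      polar_J hQ₀]
    congr 2
    simp only [QuadraticMap.polar]
    rw [← map_add, hg, hg, hg]
  have hP : ∀ u v, polar Q (ext σ b g u) (ext σ b g v) = polar Q u v := fun u v => LinearMap.congr_fun₂ hB u v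
  intro v
  have h1 : v ∈ Submodule.span F (Set.range b) := by rw [b.span_eq]; trivial
  induction h1 using Submodule.span_induction with
  | mem x hx =>
    obtain ⟨i, rfl⟩ := hx
    rw [ext_basis, hQ₀, hg, ← hQ₀, J_single]
  | zero => rw [map_zero]
  | add x y _ _ hx hy => rw [map_add, Q_add, Q_add, hx, hy, hP]
  | smul a x _ hx => rw [map_smul, QuadraticMap.map_smul, QuadraticMap.map_smul, hx]

theorem ext_mem_E (hG : Good Q) (hG₀ : Good Q₀) (hQ₀ : ∀ x, Q (J σ b x) = e * (Q₀ x : F))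
    {g : (ι → fixf σ) ≃ₗ[fixf σ] (ι → fixf σ)} (hg : g ∈ E Q₀) : ext σ b g ∈ E Q := by
  rw [← hG₀.commutator_eq_E] at hg
  rw [← hG.commutator_eq_E]
  have h1 := Subgroup.mem_map_of_mem (ext σ b) hg
  rw [Subgroup.map_commutator] at h1
  refine Subgroup.commutator_mono ?_ ?_ h1
  · rintro _ ⟨x, hx, rfl⟩
    exact ext_mem_O hQ₀ hx
  · rintro _ ⟨x, hx, rfl⟩
    exact ext_mem_O hQ₀ hx

/-- the embedding `Ω(V₀, Q₀) → Ω(V, Q)` -/
noncomputable def fE (hG : Good Q) (hG₀ : Good Q₀) (hQ₀ : ∀ x, Q (J σ b x) = e * (Q₀ x : F)) : ↥(E Q₀) →* ↥(E Q) :=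
  ((ext σ b).comp (E Q₀).subtype).codRestrict (E Q) fun g => ext_mem_E hG hG₀ hQ₀ g.2

theorem coe_fE (hG : Good Q) (hG₀ : Good Q₀) (hQ₀ : ∀ x, Q (J σ b x) = e * (Q₀ x : F))
    (g : ↥(E Q₀)) : (fE hG hG₀ hQ₀ g : V ≃ₗ[F] V) = ext σ b g.1 := rfl

/-- the setting of `Fix` -/
theorem sett [Nonempty ι] (hG : Good Q) (hG₀ : Good Q₀) {M : Gam Q} {c : F}
    (hM : IsSS Q σ c M.1) (hb : ∀ i, M.1 (b i) = b i) (he : e ≠ 0) (hQ₀ : ∀ x, Q (J σ b x) = e * (Q₀ x : F)) :
    Sett (QuotientGroup.mk' (Subgroup.center ↥(E Q))) (conjE Q M) (Psi Q M) (fE hG hG₀ hQ₀) where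
  surj := QuotientGroup.mk'_surjective _
  ker := by rw [QuotientGroup.ker_mk']
  compat h := rfl
  inj := by
    intro g h hgh
    apply Subtype.ext
    apply ext_injective (b := b)
    rw [← coe_fE hG hG₀ hQ₀, ← coe_fE hG hG₀ hQ₀, hgh]
  fix h := by
    apply Subtype.ext
    rw [coe_conjE, coe_fE]
    apply LinearEquiv.ext
    intro v
    obtain ⟨v, rfl⟩ := M.1.surjective v
    rw [conjLin_apply', ext_comm (toSemi hM) hb]
  comm a a' ha ha' := by
    obtain ⟨g, hg⟩ := exists_ext (toSemi hM) hb (comm_of_fixed ha)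
    obtain ⟨g', hg'⟩ := exists_ext (toSemi hM) hb (comm_of_fixed ha')
    have h1 : g ∈ O Q₀ := mem_O_of_ext he hQ₀ (by rw [hg]; exact E_le_O a.2)
    have h2' : g' ∈ O Q₀ := mem_O_of_ext he hQ₀ (by rw [hg']; exact E_le_O a'.2)
    have h3 : ⁅g, g'⁆ ∈ E Q₀ := by
      rw [← hG₀.commutator_eq_E]
      exact Subgroup.commutator_mem_commutator h1 h2'
    refine ⟨⟨⁅g, g'⁆, h3⟩, ?_⟩
    apply Subtype.ext
    rw [coe_fE, map_commutatorElement, hg, hg']
    rfl
  cen h := by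
    rw [QuotientGroup.mk'_apply, QuotientGroup.eq_one_iff, mem_center_E hG, mem_center_E hG₀]
    constructor
    · rintro ⟨a, ha⟩
      obtain ⟨i⟩ := (inferInstance : Nonempty ι)
      have h1 := ha (b i)
      rw [coe_fE, ext_basis, J_apply] at h1
      have h3 : ((h.1 (Pi.single i 1) i : fixf σ) : F) = a := by
        have h4 := congrArg (fun v => b.repr v i) h1
        simp only [map_smul, Module.Basis.repr_self] at h4
        rw [Finsupp.smul_apply, Finsupp.single_eq_same, smul_eq_mul, mul_one] at h4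
        rw [← h4]
        exact (congrFun (b.repr_sum_self fun j => ((h.1 (Pi.single i 1) j : fixf σ) : F)) i).symm
      refine ⟨h.1 (Pi.single i 1) i, fun x => ?_⟩
      apply J_injective (b := b)
      rw [← ext_J, ← coe_fE hG hG₀ hQ₀, ha, map_smul]
      change a • J σ b x = ((h.1 (Pi.single i 1) i : fixf σ) : F) • J σ b x
      rw [h3]
    · rintro ⟨a, ha⟩
      refine ⟨(a : F), fun v => ?_⟩
      rw [coe_fE]
      have h1 : (ext σ b h.1).toLinearMap = (a : F) • LinearMap.id := by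
        apply b.ext
        intro j
        change ext σ b h.1 (b j) = (a : F) • b j
        rw [ext_basis, ha, map_smul, J_single]
        rfl
      exact LinearMap.congr_fun h1 v

/-! ### the rational structure -/

theorem J_mem_rat (x : ι → fixf σ) : J σ b x ∈ rat b (fixf σ) := by
  intro i
  have h1 := congrFun (b.repr_sum_self fun j => ((x j : fixf σ) : F)) i
  rw [J_apply, h1]
  exact (x i).2

theorem exists_J_of_rat {v : V} (hv : v ∈ rat b (fixf σ)) : ∃ x, J σ b x = v :=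
  ⟨fun i => ⟨b.repr v i, hv i⟩, b.sum_repr v⟩

theorem isRat_of (he : e ≠ 0) (hQ₀ : ∀ x, Q (J σ b x) = e * (Q₀ x : F)) : IsRat (e⁻¹ • Q) b (fixf σ) := by
  intro v hv
  obtain ⟨x, rfl⟩ := exists_J_of_rat hv
  change e⁻¹ * Q (J σ b x) ∈ fixf σ
  rw [hQ₀, inv_mul_cancel_left₀ he]
  exact (Q₀ x).2

theorem Q_scaled (he : e ≠ 0) (hQ₀ : ∀ x, Q (J σ b x) = e * (Q₀ x : F)) (x : ι → fixf σ) :
    (e⁻¹ • Q) (J σ b x) = (Q₀ x : F) := by
  change e⁻¹ * Q (J σ b x) = _
  rw [hQ₀, inv_mul_cancel_left₀ he]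

theorem polar_scaled (c : F) (u v : V) : polar (c • Q) u v = c * polar Q u v := by
  change c * Q (u + v) - c * Q u - c * Q v = c * (Q (u + v) - Q u - Q v)
  ring

theorem O_scaled {c : F} (hc : c ≠ 0) : O (c • Q) = O Q := by
  ext g
  constructor
  · intro h v
    have h1 := h v
    change c * Q (g v) = c * Q v at h1
    exact mul_left_cancel₀ hc h1
  · intro h v
    change c * Q (g v) = c * Q v
    rw [h v]

theorem nondeg_scaled {c : F} (hc : c ≠ 0) (hQ : Nondeg Q) : Nondeg (c • Q) := by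
  intro x hx
  apply hQ
  intro y
  have h1 := hx y
  rw [polar_scaled] at h1
  exact (mul_eq_zero.1 h1).resolve_left hc

theorem E_scaled {c : F} (hc : c ≠ 0) (hG : Good Q) (hG' : Good (c • Q)) : E (c • Q) = E Q := by
  rw [← hG.commutator_eq_E, ← hG'.commutator_eq_E, O_scaled hc]

/-- the image of the rational Siegel elements -/
theorem siegel_mem_range (hG : Good Q) (hG₀ : Good Q₀) (he : e ≠ 0) (hQ₀ : ∀ x, Q (J σ b x) = e * (Q₀ x : F))
    {u w : V} (hu : u ∈ rat b (fixf σ)) (hw : w ∈ rat b (fixf σ)) (hu0 : (e⁻¹ • Q) u = 0)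
    (huw : polar (e⁻¹ • Q) u w = 0) : ∃ k : ↥(E Q₀), (fE hG hG₀ hQ₀ k : V ≃ₗ[F] V) = siegel (e⁻¹ • Q) u w hu0 huw := by
  obtain ⟨x, rfl⟩ := exists_J_of_rat hu
  obtain ⟨y, rfl⟩ := exists_J_of_rat hw
  have h1 : Q₀ x = 0 := by
    rw [Q_scaled he hQ₀] at hu0
    exact Subtype.ext hu0
  have h3 : ∀ z t : ι → fixf σ, polar (e⁻¹ • Q) (J σ b z) (J σ b t) = ((polar Q₀ z t : fixf σ) : F) := by
    intro z t
    rw [polar_scaled, polar_J hQ₀, inv_mul_cancel_left₀ he]
  have h2 : polar Q₀ x y = 0 := by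
    rw [h3] at huw
    exact Subtype.ext huw
  refine ⟨⟨siegel Q₀ x y h1 h2, siegel_mem_E h1 h2⟩, ?_⟩
  rw [coe_fE]
  apply LinearEquiv.toLinearMap_injective
  apply b.ext
  intro i
  change ext σ b (siegel Q₀ x y h1 h2) (b i) = siegel (e⁻¹ • Q) (J σ b x) (J σ b y) hu0 huw (b i)
  rw [ext_basis, siegel_apply, ← J_single (σ := σ) (b := b) i, siegel_apply, h3, h3, Q_scaled he hQ₀, map_sub, map_sub,
    map_add]
  have h4 : ∀ (a : fixf σ) (z : ι → fixf σ), J σ b (a • z) = (a : F) • J σ b z := fun a z => (J σ b).map_smul a z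
  rw [h4, h4, h4]
  rfl

/-! ### overgroups -/

/-- **Overgroups of the image of `Ω(V₀, Q₀)`.** -/
theorem hover [Finite F] [FiniteDimensional F V] {p : ℕ} (hp : p.Prime) (hG : Good Q) (hG₀ : Good Q₀)
    (hn : 7 ≤ Fintype.card ι) (hord : orderOf σ = p) {M : Gam Q} {c : F} (hM : IsSS Q σ c M.1)
    (hb : ∀ i, M.1 (b i) = b i) (he : e ≠ 0) (hQ₀ : ∀ x, Q (J σ b x) = e * (Q₀ x : F))
    (S : Subgroup ↥(E Q)) (hS : (fE hG hG₀ hQ₀).range ≤ S) :
    S = ⊤ ∨ ∀ g ∈ S, Psi Q M (QuotientGroup.mk' (Subgroup.center ↥(E Q)) g) =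
      QuotientGroup.mk' (Subgroup.center ↥(E Q)) g := by
  have he' : e⁻¹ ≠ 0 := inv_ne_zero he
  have hnd : Nondeg (e⁻¹ • Q) := nondeg_scaled he' hG.nondeg
  have hrk : Module.finrank F V = Fintype.card ι := Module.finrank_eq_card_basis b
  have hGs : Good (e⁻¹ • Q) := good_of_finite hnd (by omega)
  have hEE : E (e⁻¹ • Q) = E Q := E_scaled he' hG hGs
  have hR : IsRat (e⁻¹ • Q) b (fixf σ) := isRat_of he hQ₀
  have hHE : S.map (E Q).subtype ≤ E (e⁻¹ • Q) := by
    rw [hEE]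
    exact Subgroup.map_subtype_le S
  have hHR : HasRat (e⁻¹ • Q) b (fixf σ) (S.map (E Q).subtype) := by
    intro u hu w hw hu0 huw
    refine ⟨hu0, huw, ?_⟩
    obtain ⟨k, hk⟩ := siegel_mem_range hG hG₀ he hQ₀ hu hw hu0 huw
    rw [← hk]
    exact ⟨_, hS ⟨k, rfl⟩, rfl⟩
  have hcard : Nat.card F = Nat.card ↥(fixf σ) ^ p := Cfsg.Agent.H27.Psl.card_fixf hp hord
  rcases Rat.overgroups_rat hnd hR hn hp hcard hHR hHE with h | h
  · right
    intro g hg
    obtain ⟨c', hc', hst⟩ := h ⟨g, hg, rfl⟩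
    have h1 : ∀ i, M.1 (c' • (g : V ≃ₗ[F] V) (b i)) = c' • (g : V ≃ₗ[F] V) (b i) := by
      intro i
      obtain ⟨x, hx⟩ := exists_J_of_rat ((hst (b i)).1 (basis_mem i))
      have hx' : J σ b x = c' • (g : V ≃ₗ[F] V) (b i) := hx
      rw [← hx']
      exact M_J (toSemi hM) hb x
    have hσc : σ c' ≠ 0 := by simpa using hc'
    have h2 : ∀ i, conjLin M g (b i) = ((σ c')⁻¹ * c') • (g : V ≃ₗ[F] V) (b i) := by
      intro i
      have h3 := conjLin_apply' M (g : V ≃ₗ[F] V) (b i)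
      rw [hb] at h3
      rw [h3, mul_smul, ← h1 i, hM.smul, smul_smul, inv_mul_cancel₀ hσc, one_smul]
    have h3 : ((conjLin M g : V ≃ₗ[F] V) : V →ₗ[F] V) = ((σ c')⁻¹ * c') • ((g : V ≃ₗ[F] V) : V →ₗ[F] V) := b.ext h2
    have h4 : ∀ v, conjLin M g v = ((σ c')⁻¹ * c') • (g : V ≃ₗ[F] V) v := fun v => LinearMap.congr_fun h3 v
    rw [QuotientGroup.mk'_apply, Psi_mk]
    symm
    rw [QuotientGroup.eq, mem_center_E hG]
    refine ⟨(σ c')⁻¹ * c', fun v => ?_⟩
    change (g : V ≃ₗ[F] V)⁻¹ (conjLin M g v) = _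
    rw [h4, map_smul]
    congr 1
    exact (g : V ≃ₗ[F] V).symm_apply_apply v
  · left
    rw [eq_top_iff]
    intro g _
    have h1 : (g : V ≃ₗ[F] V) ∈ S.map (E Q).subtype := by
      rw [h, hEE]
      exact g.2
    obtain ⟨g', hg', h2⟩ := h1
    have h3 : g' = g := Subtype.ext h2
    rwa [← h3]

/-! ### centralisers -/

theorem comm_central {B : Type*} [Group B] {x y z w : B} (hz : ∀ g, g * z = z * g) (hw : ∀ g, g * w = w * g) :
    ⁅x * z, y * w⁆ = ⁅x, y⁆ := by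
  have hz' : ∀ g, g * z⁻¹ = z⁻¹ * g := fun g => by
    rw [mul_inv_eq_iff_eq_mul, mul_assoc, hz g, inv_mul_cancel_left]
  have hw' : ∀ g, g * w⁻¹ = w⁻¹ * g := fun g => by
    rw [mul_inv_eq_iff_eq_mul, mul_assoc, hw g, inv_mul_cancel_left]
  rw [commutatorElement_def, commutatorElement_def, mul_inv_rev, mul_inv_rev]
  have e1 : x * z * (y * w) = x * y * (z * w) := by
    rw [mul_assoc, ← mul_assoc z, ← hz y]
    group
  have e2 : z⁻¹ * x⁻¹ * (w⁻¹ * y⁻¹) = (z * w)⁻¹ * (x⁻¹ * y⁻¹) := by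
    rw [mul_inv_rev, ← hw' y⁻¹, ← mul_assoc, hw' (z⁻¹ * x⁻¹ * y⁻¹)]
    group
  have e3 : x * z * (y * w) * (z⁻¹ * x⁻¹) * (w⁻¹ * y⁻¹) = x * z * (y * w) * (z⁻¹ * x⁻¹ * (w⁻¹ * y⁻¹)) := by group
  rw [e3, e1, e2]
  group

/-- homomorphisms from a perfect group which agree modulo the centre -/
theorem hom_eq_of_perfect {A B : Type*} [Group A] [Group B] (hA : commutator A = ⊤) (f g : A →* B)
    (h : ∀ a, (f a)⁻¹ * g a ∈ Subgroup.center B) : f = g := by
  have h2 : commutator A ≤ f.eqLocus g := by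
    rw [commutator_def, Subgroup.commutator_le]
    intro a _ c _
    have h3 := h a
    have h4 := h c
    rw [Subgroup.mem_center_iff] at h3 h4
    have h5 := comm_central (x := f a) (y := f c) h3 h4
    rw [mul_inv_cancel_left, mul_inv_cancel_left] at h5
    change f ⁅a, c⁆ = g ⁅a, c⁆
    rw [map_commutatorElement, map_commutatorElement, h5]
  rw [hA] at h2
  ext a
  exact h2 (Subgroup.mem_top a)

/-- **A linear map commuting with the rational Siegel elements is a scalar.** -/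
theorem scalar_of_comm_rat [Finite F] {F₀ : Subfield F} (hQ : Nondeg Q) (hR : IsRat Q b F₀) (hn : 7 ≤ Fintype.card ι)
    {l : V ≃ₗ[F] V} (h : ∀ u ∈ rat b F₀, ∀ w ∈ rat b F₀, ∀ (hu : Q u = 0) (hw : polar Q u w = 0),
      siegel Q u w hu hw * l = l * siegel Q u w hu hw) : ∃ a : F, ∀ v, l v = a • v := by
  have hfix : ∀ u ∈ rat b F₀, u ≠ 0 → Q u = 0 → ∃ a : F, l u = a • u := by
    intro u hu hu0 hsu
    obtain ⟨y, hy, huy⟩ := exists_partner_rat hQ hR hu hsu hu0
    obtain ⟨z, hz, z', hz', hzz, h1, h2⟩ := exists_hyp_rat hQ hR ![u, y]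
      (by intro i; fin_cases i <;> assumption) (by omega)
    have huz : polar Q u z = 0 := h1 0
    have huz' : polar Q u z' = 0 := h2 0
    have hx : ∀ w ∈ rat b F₀, ∀ hw : polar Q u w = 0, siegel Q u w hsu hw (l u) = l u := by
      intro w hw huw
      have h3 := LinearEquiv.congr_fun (h u hu w hw hsu huw) u
      have h4 : siegel Q u w hsu huw u = u := by
        rw [siegel_apply, huy.polar_left, polar_comm Q w u, huw]
        simp
      rw [LinearEquiv.mul_apply, LinearEquiv.mul_apply, h4] at h3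
      exact h3
    have hux : polar Q u (l u) = 0 := by
      have h3 := hx z hz huz
      rw [siegel_apply] at h3
      have h4 := congrArg (polar Q z') h3
      rw [polar_sub_right, polar_sub_right, polar_add_right, polar_smul_right, polar_smul_right, polar_smul_right,
        polar_comm Q z' z, hzz.pair, polar_comm Q z' u, huz', smul_zero, smul_zero, sub_zero, sub_zero,
        smul_eq_mul, mul_one, add_eq_left] at h4
      exact h4
    have hwx : ∀ w ∈ rat b F₀, polar Q u w = 0 → polar Q w (l u) = 0 := by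
      intro w hw huw
      have h3 := hx w hw huw
      rw [siegel_apply, hux, zero_smul, mul_zero, zero_smul, add_zero, sub_zero, sub_eq_self] at h3
      exact (smul_eq_zero.1 h3).resolve_right hu0
    refine ⟨polar Q y (l u), ?_⟩
    rw [← sub_eq_zero]
    refine eq_zero_of_perp hQ (b := b) (F₀ := F₀) fun t ht => ?_
    have h5 : t = polar Q y t • u + polar Q u t • y + Cfsg.Agent.LieClassical.OrthTrans.proj Q u y t := by
      rw [Cfsg.Agent.LieClassical.OrthTrans.proj]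
      module
    have h6 := hwx _ (proj_rat hR hu hy ht) (polar_proj_left huy t)
    rw [polar_sub_left, polar_smul_left, smul_eq_mul]
    have h7 : polar Q (l u) t = polar Q u t * polar Q y (l u) := by
      conv_lhs => rw [h5]
      rw [polar_add_right, polar_add_right, polar_smul_right, polar_smul_right, polar_comm Q (l u) u, hux,
        polar_comm Q (l u) (Cfsg.Agent.LieClassical.OrthTrans.proj Q u y t), h6, polar_comm Q (l u) y, smul_zero,
        zero_add, add_zero, smul_eq_mul]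
    rw [h7]
    ring
  obtain ⟨e₁, he₁, f₁, hf₁, h₁, -, -⟩ := exists_hyp_rat hQ hR (m := 0) ![]
    (by intro i; exact i.elim0) (by omega)
  obtain ⟨a, ha⟩ := hfix e₁ he₁ h₁.left_ne h₁.left
  have hH : HasRat Q b F₀ (Subgroup.centralizer {l}) := by
    intro u hu w hw hsu huw
    refine ⟨hsu, huw, ?_⟩
    rw [Subgroup.mem_centralizer_iff]
    rintro _ rfl
    exact (h u hu w hw hsu huw).symm
  have hall : ∀ u ∈ rat b F₀, Q u = 0 → l u = a • u := by
    intro u hu hsu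
    by_cases hu0 : u = 0
    · rw [hu0, map_zero, smul_zero]
    obtain ⟨g, hg, hgu, -⟩ := trans_rat hQ hR (by omega) hH he₁ hu h₁.left hsu h₁.left_ne hu0
    have h3 := Subgroup.mem_centralizer_iff.1 hg.1 l rfl
    have h4 := LinearEquiv.congr_fun h3 e₁
    rw [LinearEquiv.mul_apply, LinearEquiv.mul_apply, hgu, ha, map_smul, hgu] at h4
    exact h4
  refine ⟨a, ?_⟩
  have h5 : ∀ v : rat b F₀, l (v : V) = a • (v : V) :=
    sing_induction (Q := qf0 Q b F₀ hR) (x := ⟨e₁, he₁⟩) (y := ⟨f₁, hf₁⟩) (hyp_qf0.2 h₁)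
      (P := fun v => l (v : V) = a • (v : V))
      (fun x y hx hy => by
        change l ((x : V) + (y : V)) = a • ((x : V) + (y : V))
        rw [map_add, hx, hy, smul_add])
      (fun x hx => hall x x.2 (congrArg Subtype.val hx))
  have h6 : (l : V →ₗ[F] V) = a • LinearMap.id := b.ext fun i => h5 ⟨b i, basis_mem i⟩
  exact fun v => LinearMap.congr_fun h6 v

/-- **Linear automorphisms centralising the image of `Ω(V₀, Q₀)`.** -/
theorem hcent [Finite F] [FiniteDimensional F V] (hG : Good Q) (hG₀ : Good Q₀) (hn : 7 ≤ Fintype.card ι) (he : e ≠ 0)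
    (hQ₀ : ∀ x, Q (J σ b x) = e * (Q₀ x : F)) {L : Gam Q} {c : F} (hL : IsSS Q (1 : F ≃+* F) c L.1)
    (h : ∀ k, Psi Q L (QuotientGroup.mk' (Subgroup.center ↥(E Q)) (fE hG hG₀ hQ₀ k)) =
      QuotientGroup.mk' (Subgroup.center ↥(E Q)) (fE hG hG₀ hQ₀ k)) : Psi Q L = 1 := by
  have he' : e⁻¹ ≠ 0 := inv_ne_zero he
  have hnd : Nondeg (e⁻¹ • Q) := nondeg_scaled he' hG.nondeg
  have h1 : fE hG hG₀ hQ₀ = (conjE Q L).toMonoidHom.comp (fE hG hG₀ hQ₀) := by
    refine hom_eq_of_perfect (commutator_E hG₀) _ _ fun k => ?_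
    have h2 := h k
    rw [QuotientGroup.mk'_apply, Psi_mk] at h2
    exact QuotientGroup.eq.1 h2.symm
  let l : V ≃ₗ[F] V :=
    { L.1 with
      map_add' := hL.add
      map_smul' := hL.smul }
  have hl : ∀ v, l v = L.1 v := fun v => rfl
  obtain ⟨a, ha⟩ := scalar_of_comm_rat hnd (isRat_of he hQ₀) hn (l := l) (by
    intro u hu w hw hsu huw
    obtain ⟨k, hk⟩ := siegel_mem_range hG hG₀ he hQ₀ hu hw hsu huw
    rw [← hk]
    have h3 := DFunLike.congr_fun h1 k
    have h4 : (fE hG hG₀ hQ₀ k : V ≃ₗ[F] V) = conjLin L (fE hG hG₀ hQ₀ k : V ≃ₗ[F] V) :=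
      congrArg Subtype.val h3
    apply LinearEquiv.ext
    intro v
    change (fE hG hG₀ hQ₀ k : V ≃ₗ[F] V) (L.1 v) = L.1 ((fE hG hG₀ hQ₀ k : V ≃ₗ[F] V) v)
    rw [← conjLin_apply' L, ← h4])
  have ha0 : a ≠ 0 := by
    rintro rfl
    obtain ⟨x, y, hxy⟩ := hG.exists_hyp
    have h5 := ha x
    rw [zero_smul] at h5
    exact hxy.left_ne (l.map_eq_zero_iff.1 h5)
  rw [← MonoidHom.mem_ker, ker_Psi hG]
  refine ⟨Units.mk0 a ha0, ?_⟩
  apply Subtype.ext
  ext v
  exact (ha v).symm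

/-! ### the data of a field automorphism -/

/-- the similitudes -/
def LinG (Q : QuadraticForm F V) : Subgroup (Gam Q) where
  carrier := {M | ∃ c : F, IsSS Q (1 : F ≃+* F) c M.1}
  one_mem' := ⟨1, Cfsg.Agent.CpAut.Orth.isSS_one⟩
  mul_mem' := by
    rintro M N ⟨c, hM⟩ ⟨d, hN⟩
    exact ⟨_, hM.mul hN⟩
  inv_mem' := by
    rintro M ⟨c, hM⟩
    exact ⟨_, hM.inv⟩

/-- the automorphisms induced by similitudes -/
def Lin (Q : QuadraticForm F V) : Subgroup (MulAut (↥(E Q) ⧸ Subgroup.center ↥(E Q))) := (LinG Q).map (Psi Q)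

theorem mem_Lin {M : Gam Q} {c : F} (hM : IsSS Q (1 : F ≃+* F) c M.1) : Psi Q M ∈ Lin Q := ⟨M, ⟨c, hM⟩, rfl⟩

/-- **The data of a field automorphism.** -/
theorem dat_of {F : Type} [Field F] [Finite F] {V : Type*} [AddCommGroup V] [Module F V] [Module.Finite F V]
    {Q : QuadraticForm F V} (hG : Good Q) (hd : 7 ≤ Module.finrank F V) {p : ℕ} (hp : p.Prime)
    {x : MulAut (↥(E Q) ⧸ Subgroup.center ↥(E Q))} (hx : x ∈ (Psi Q).range) (hxp : x ^ p = 1) (hno : x ∉ Lin Q)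
    (IH : ∀ σ : F ≃+* F, orderOf σ = p →
      ∀ Q₀ : QuadraticForm (fixf σ) (Fin (Module.finrank F V) → fixf σ), Nondeg Q₀ →
        Cfsg.Agent.H818.Gen.Gen p (↥(E Q₀) ⧸ Subgroup.center ↥(E Q₀))) :
    Cfsg.Agent.H972.Gen.Dat p (Lin Q) x := by
  classical
  have : Fact p.Prime := ⟨hp⟩
  have hfinV : Finite V := Module.finite_of_finite F
  obtain ⟨M, rfl⟩ := hx
  obtain ⟨σ, l, hM⟩ := M.2
  have hσ : σ ≠ 1 := by
    rintro rfl
    exact hno (mem_Lin hM)
  have h1 := hxp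
  rw [← map_pow, ← MonoidHom.mem_ker, ker_Psi hG] at h1
  obtain ⟨a, ha⟩ := h1
  have ha' : (scal Q a).1 = M.1 ^ p := congrArg Subtype.val ha
  have hσp : σ ^ p = 1 := by
    have h2 := Cfsg.Agent.CpAut.Orth.isSS_pow hM p
    rw [← ha'] at h2
    obtain ⟨τ, d, h3⟩ := (scal Q a).2
    have h4 : IsSS Q (1 : F ≃+* F) ((a : F) * a) (scal Q a).1 :=
      ⟨mul_ne_zero a.ne_zero a.ne_zero, fun u v => smul_add _ _ _, fun t v => smul_comm _ _ _, fun v => by
        change Q ((a : F) • v) = _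
        rw [QuadraticMap.map_smul]
        rfl⟩
    exact (Cfsg.Agent.CpAut.Orth.isSS_unique (Cfsg.Agent.CpAut.Orth.exists_ne hG) h2 h4).1
  have hord : orderOf σ = p := orderOf_eq_prime hσp hσ
  obtain ⟨v₀, hv₀⟩ := Cfsg.Agent.CpAut.Orth.exists_ne hG
  obtain ⟨c, hc⟩ := Cfsg.Agent.CpAut.Descent.exists_scale (toSemi hM) hord hp.pos a.ne_zero
    (fun v => by rw [← ha']; rfl) ⟨v₀, by rintro rfl; exact hv₀ (QuadraticMap.map_zero Q)⟩
  -- `N = c M`, `N ^ p = 1`
  obtain ⟨N, hN⟩ : ∃ N : Gam Q, N = scal Q c * M := ⟨_, rfl⟩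
  have hNv : N.1 = Cfsg.Agent.CpAut.Descent.scal V c * M.1 := by
    rw [hN]
    rfl
  have hNs : IsSS Q σ (c * c * l) N.1 := by
    have hNv' : ∀ v, N.1 v = (c : F) • M.1 v := fun v => by rw [hNv]; rfl
    refine ⟨mul_ne_zero (mul_ne_zero c.ne_zero c.ne_zero) hM.ne, fun u v => ?_, fun x v => ?_, fun v => ?_⟩
    · rw [hNv', hNv', hNv', hM.add, smul_add]
    · rw [hNv', hNv', hM.smul, smul_comm]
    · rw [hNv', QuadraticMap.map_smul, hM.form, smul_eq_mul, mul_assoc ((c : F) * c)]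
  have hNp : N.1 ^ p = 1 := by rw [hNv]; exact hc
  have h5 : Psi Q M = Psi Q N := by
    have h6 : Psi Q (scal Q c) = 1 := by
      rw [← MonoidHom.mem_ker, ker_Psi hG]
      exact ⟨c, rfl⟩
    rw [hN, map_mul, h6, one_mul]
  have h7 : ∏ i ∈ Finset.range p, (σ ^ i) ((c : F) * c * l) = 1 := by
    have h8 := Cfsg.Agent.CpAut.Orth.isSS_pow hNs p
    rw [hNp] at h8
    exact (Cfsg.Agent.CpAut.Orth.isSS_unique (Cfsg.Agent.CpAut.Orth.exists_ne hG) h8
      Cfsg.Agent.CpAut.Orth.isSS_one).2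
  obtain ⟨e, he, hle⟩ := Cfsg.Agent.CpAut.Descent.hilbert90 hord hp.pos h7
  obtain ⟨b, hb⟩ := Cfsg.Agent.CpAut.Descent.exists_basis (toSemi hNs) hord hp.pos hNp
    (ι := Fin (Module.finrank F V)) (by rw [Fintype.card_fin])
  obtain ⟨Q₀, hQ₀⟩ := Cfsg.Agent.CpAut.OrthMain.exists_form hNs hb he hle
  have hnd : Nondeg Q₀ := nondeg_zero hQ₀ hG.nondeg
  have hrk : Module.finrank (fixf σ) (Fin (Module.finrank F V) → fixf σ) = Module.finrank F V := by
    rw [Module.finrank_fintype_fun_eq_card, Fintype.card_fin]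
  have hG₀ : Good Q₀ := good_of_finite hnd (by omega)
  have hne : Nonempty (Fin (Module.finrank F V)) := ⟨⟨0, by omega⟩⟩
  have hn : 7 ≤ Fintype.card (Fin (Module.finrank F V)) := by rwa [Fintype.card_fin]
  rw [h5]
  refine Cfsg.Agent.H972.Gen.Dat.of_sett (sett hG hG₀ hNs hb he hQ₀) ?_ (IH σ hord Q₀ hnd) ?_ ?_
  · -- perfect
    have h9 := commutator_E hG₀
    have h10 := congrArg (Subgroup.map (QuotientGroup.mk' (Subgroup.center ↥(E Q₀)))) h9
    rw [commutator_def, Subgroup.map_commutator, ← MonoidHom.range_eq_map,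
      MonoidHom.range_eq_top.2 (QuotientGroup.mk'_surjective _)] at h10
    exact h10
  · intro S _ hS
    exact hover hp hG hG₀ hn hord hNs hb he hQ₀ S hS
  · rintro _ ⟨L, ⟨d, hL⟩, rfl⟩ h
    exact hcent hG hG₀ hn he hQ₀ hL h

end Cfsg.Agent.H889.Gen.Fld
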