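import Cfsg.Agent.H889.Gen.OrthAbs
import Cfsg.Agent.H818.Gen.Rows
import Cfsg.Agent.KFacts.RgdLieCharP
import Cfsg.Agent.LieClassical.OrthForms
import Cfsg.Agent.LieClassical.PomegaCard

/-!
# S2187, orthogonal rows: inner automorphisms (helper889)

* `gam_inner` : the general statement;
* `gam_inner_odd`, `gam_inner_plus`, `gam_inner_minus` : the three families.
-/

set_option autoImplicit false
set_option linter.unusedSectionVars false

namespace Cfsg.Agent.H889.Gen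

open Cfsg QuadraticMap Cfsg.Agent.LieClassical.OrthCore Cfsg.Agent.LieClassical.OrthTrans
open Cfsg.Agent.LieClassical.OrthSimple Cfsg.Agent.LieClassical.OrthFinite Cfsg.Agent.LieClassical.OrthForms
open Cfsg.Agent.H847.Bs Cfsg.Agent.H900.Gen Cfsg.Agent.H818.Gen
open scoped commutatorElement

theorem noncomm_of {F V : Type*} [Field F] [AddCommGroup V] [Module F V] {Q : QuadraticForm F V} (hG : Good Q)
    {G : Type*} [Group G] [hs : IsSimpleGroup G] (D : Quo Q G) : ∃ a b : G, a * b ≠ b * a := by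
  by_contra hcon
  push Not at hcon
  have h1 : ∀ x ∈ E Q, ∀ hx : x ∈ E Q, D.π ⟨x, hx⟩ = 1 := by
    have h2 : ⁅E Q, E Q⁆ ≤ (D.π.ker).map (E Q).subtype := by
      rw [Subgroup.commutator_le]
      intro x hx y hy
      refine ⟨⁅(⟨x, hx⟩ : E Q), ⟨y, hy⟩⁆, ?_, rfl⟩
      rw [SetLike.mem_coe, MonoidHom.mem_ker, map_commutatorElement, commutatorElement_eq_one_iff_mul_comm]
      exact hcon _ _
    rw [hG.E_perfect] at h2
    intro x hx hx'
    obtain ⟨k, hk, hkx⟩ := h2 hx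
    have h3 : k = ⟨x, hx'⟩ := Subtype.ext hkx
    rw [← h3]
    exact hk
  obtain ⟨a, b, hab⟩ := hs.toNontrivial
  apply hab
  obtain ⟨⟨x, hx⟩, rfl⟩ := D.surj a
  obtain ⟨⟨y, hy⟩, rfl⟩ := D.surj b
  rw [h1 x hx hx, h1 y hy hy]

/-- **Inner automorphisms.** -/
theorem gam_inner {F : Type} [Field F] [Fintype F] {r p : ℕ} [CharP F r] (hc : Cond r p) {ι : Type} [Fintype ι]
    [DecidableEq ι] (Q : QuadraticForm F (ι → F)) (hQ : Nondeg Q) (hd : 7 ≤ Fintype.card ι)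
    (hlin : LinIso (frmQ Q) p (E Q)) (hf : KFacts.RgdFilt.HasFilt r (POmega F ⇑Q))
    (E₀ : Subgroup (MulAut (POmega F ⇑Q))) (hE : IsElementaryAbelian p E₀) (hE2 : p ^ 2 ≤ Nat.card E₀)
    (hin : E₀ ≤ (MulAut.conj : POmega F ⇑Q →* _).range) : Gam p E₀ = ⊤ := by
  have : Fact r.Prime := ⟨hc.r_prime⟩
  have : Fact p.Prime := ⟨hc.p_prime⟩
  have hG : Good Q := good_of_finite hQ (by rw [Module.finrank_fintype_fun_eq_card]; omega)
  have hs : IsSimpleGroup (POmega F ⇑Q) := isSimpleGroup_POmega hQ (by omega)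
  have hfin : Finite (POmega F ⇑Q) := Quotient.finite _
  let D : Quo Q (POmega F ⇑Q) := quo_pomega hG
  exact gam_abs hG hc.p_ne_two hc.p_ne_r hlin (noncomm_of hG D) hf D hE hE2 hin

/-- **`PΩ_{2m+1}(q)`**, inner automorphisms -/
theorem gam_inner_odd {F : Type} [Field F] [Fintype F] {r p : ℕ} [CharP F r] (hc : Cond r p) {m : ℕ} (hm : 3 ≤ m)
    (hodd : Odd (Fintype.card F)) (hlin : LinIso (frmQ (oddForm m F)) p (E (oddForm m F)))
    (E₀ : Subgroup (MulAut (POmega F (quadFormOdd m F)))) (hE : IsElementaryAbelian p E₀) (hE2 : p ^ 2 ≤ Nat.card E₀)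
    (hin : E₀ ≤ (MulAut.conj : POmega F (quadFormOdd m F) →* _).range) : Gam p E₀ = ⊤ := by
  have h2 : (2 : F) ≠ 0 := Cfsg.Agent.LieClassical.PomegaCard.odd_card_iff.1 hodd
  have : Fact r.Prime := ⟨hc.r_prime⟩
  have hf : KFacts.RgdFilt.HasFilt r (POmega F (quadFormOdd m F)) := KFacts.RgdLieCharP.hasFilt_of_lie
    (Or.inr (Or.inr (Or.inr (Or.inl ⟨F, inferInstance, inferInstance, inferInstance, m, hm, hodd, ⟨MulEquiv.refl _⟩⟩))))
  have key : ∀ q : (Unit ⊕ (Fin m ⊕ Fin m) → F) → F, ⇑(oddForm m F) = q → KFacts.RgdFilt.HasFilt r (POmega F q) →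
      ∀ E₀ : Subgroup (MulAut (POmega F q)), IsElementaryAbelian p E₀ → p ^ 2 ≤ Nat.card E₀ →
      E₀ ≤ (MulAut.conj : POmega F q →* _).range → Gam p E₀ = ⊤ := by
    rintro _ rfl hf E₀ hE hE2 hin
    refine gam_inner hc (oddForm m F) (nondeg_oddForm m F h2) ?_ hlin hf E₀ hE hE2 hin
    rw [Fintype.card_sum, Fintype.card_sum, Fintype.card_fin, Fintype.card_unit]
    omega
  exact key _ (coe_oddForm m F) hf E₀ hE hE2 hin

/-- **`PΩ⁺_{2m}(q)`**, inner automorphisms -/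
theorem gam_inner_plus {F : Type} [Field F] [Fintype F] {r p : ℕ} [CharP F r] (hc : Cond r p) {m : ℕ} (hm : 4 ≤ m)
    (hlin : LinIso (frmQ (plusForm m F)) p (E (plusForm m F)))
    (E₀ : Subgroup (MulAut (POmega F (quadFormPlus m F)))) (hE : IsElementaryAbelian p E₀) (hE2 : p ^ 2 ≤ Nat.card E₀)
    (hin : E₀ ≤ (MulAut.conj : POmega F (quadFormPlus m F) →* _).range) : Gam p E₀ = ⊤ := by
  have : Fact r.Prime := ⟨hc.r_prime⟩
  have hf : KFacts.RgdFilt.HasFilt r (POmega F (quadFormPlus m F)) := KFacts.RgdLieCharP.hasFilt_of_lie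
    (Or.inr (Or.inr (Or.inr (Or.inr (Or.inl ⟨F, inferInstance, inferInstance, inferInstance, m, hm, ⟨MulEquiv.refl _⟩⟩)))))
  have key : ∀ q : (Fin m ⊕ Fin m → F) → F, ⇑(plusForm m F) = q → KFacts.RgdFilt.HasFilt r (POmega F q) →
      ∀ E₀ : Subgroup (MulAut (POmega F q)), IsElementaryAbelian p E₀ → p ^ 2 ≤ Nat.card E₀ →
      E₀ ≤ (MulAut.conj : POmega F q →* _).range → Gam p E₀ = ⊤ := by
    rintro _ rfl hf E₀ hE hE2 hin
    refine gam_inner hc (plusForm m F) (nondeg_plusForm m F) ?_ hlin hf E₀ hE hE2 hin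
    rw [Fintype.card_sum, Fintype.card_fin]
    omega
  exact key _ (coe_plusForm m F) hf E₀ hE hE2 hin

/-- **`PΩ⁻_{2m}(q)`**, inner automorphisms -/
theorem gam_inner_minus {F : Type} [Field F] [Fintype F] {r p : ℕ} [CharP F r] (hc : Cond r p) {m : ℕ} {a b : F}
    (hm : 4 ≤ m) (hab : ∀ z₁ z₂ : F, z₁ ^ 2 + a * z₁ * z₂ + b * z₂ ^ 2 = 0 → z₁ = 0 ∧ z₂ = 0)
    (hlin : LinIso (frmQ (minusForm (m - 1) F a b)) p (E (minusForm (m - 1) F a b)))
    (E₀ : Subgroup (MulAut (POmega F (quadFormMinus (m - 1) F a b)))) (hE : IsElementaryAbelian p E₀)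
    (hE2 : p ^ 2 ≤ Nat.card E₀)
    (hin : E₀ ≤ (MulAut.conj : POmega F (quadFormMinus (m - 1) F a b) →* _).range) : Gam p E₀ = ⊤ := by
  have : Fact r.Prime := ⟨hc.r_prime⟩
  have hf : KFacts.RgdFilt.HasFilt r (POmega F (quadFormMinus (m - 1) F a b)) := KFacts.RgdLieCharP.hasFilt_of_lie
    (Or.inr (Or.inr (Or.inr (Or.inr (Or.inr (Or.inl
      ⟨F, inferInstance, inferInstance, inferInstance, m, a, b, hm, hab, ⟨MulEquiv.refl _⟩⟩))))))
  have key : ∀ q : ((Fin (m - 1) ⊕ Fin (m - 1)) ⊕ Fin 2 → F) → F, ⇑(minusForm (m - 1) F a b) = q →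
      KFacts.RgdFilt.HasFilt r (POmega F q) →
      ∀ E₀ : Subgroup (MulAut (POmega F q)), IsElementaryAbelian p E₀ → p ^ 2 ≤ Nat.card E₀ →
      E₀ ≤ (MulAut.conj : POmega F q →* _).range → Gam p E₀ = ⊤ := by
    rintro _ rfl hf E₀ hE hE2 hin
    refine gam_inner hc (minusForm (m - 1) F a b) (nondeg_minusForm (m - 1) F a b hab) ?_ hlin hf E₀ hE hE2 hin
    rw [Fintype.card_sum, Fintype.card_sum, Fintype.card_fin, Fintype.card_fin]
    omega
  exact key _ (coe_minusForm (m - 1) F a b) hf E₀ hE hE2 hin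

end Cfsg.Agent.H889.Gen
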